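import Cfsg.Agent.Helper10.Thompson

/-!
Helper49: the Thompson subgroup `Cfsg.thompsonSubgroupOf p U` of a subgroup `U ≤ G`, described
inside `G` through the elementary abelian subgroups of `U` of largest order.
-/

set_option autoImplicit false

namespace Cfsg.Agent.Helper49

open Cfsg.Agent.Helper10

variable {G : Type*} [Group G] {p : ℕ}

/-- `A` is an elementary abelian `p`-subgroup of largest order inside `U` (all inside `G`). -/
def IsMaxEAIn (p : ℕ) (U A : Subgroup G) : Prop :=
  A ≤ U ∧ Cfsg.IsElementaryAbelian p A ∧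
    ∀ B : Subgroup G, B ≤ U → Cfsg.IsElementaryAbelian p B → Nat.card B ≤ Nat.card A

theorem IsMaxEAIn.subgroupOf_mem {U A : Subgroup G} (h : IsMaxEAIn p U A) :
    A.subgroupOf U ∈ Cfsg.maxElementaryAbelianSubgroups p ↥U := by
  refine ⟨elemAb_comap_subtype h.2.1 U, ?_⟩
  intro B hB
  have h1 : Nat.card (A.subgroupOf U) = Nat.card A :=
    Nat.card_congr (Subgroup.subgroupOfEquivOfLe h.1).toEquiv
  have h2 : Nat.card (B.map U.subtype) = Nat.card B :=
    Subgroup.card_map_of_injective U.subtype_injective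
  rw [h1, ← h2]
  exact h.2.2 _ (Subgroup.map_subtype_le B) (elemAb_map hB _)

theorem isMaxEAIn_map_subtype {U : Subgroup G} {A' : Subgroup ↥U}
    (hA' : A' ∈ Cfsg.maxElementaryAbelianSubgroups p ↥U) : IsMaxEAIn p U (A'.map U.subtype) := by
  refine ⟨Subgroup.map_subtype_le A', elemAb_map hA'.1 _, ?_⟩
  intro B hBU hB
  have h1 : Nat.card (B.subgroupOf U) = Nat.card B :=
    Nat.card_congr (Subgroup.subgroupOfEquivOfLe hBU).toEquiv
  have h2 : Nat.card (A'.map U.subtype) = Nat.card A' :=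
    Subgroup.card_map_of_injective U.subtype_injective
  rw [h2, ← h1]
  exact hA'.2 _ (elemAb_comap_subtype hB U)

/-- A largest elementary abelian subgroup of `U` lies in `J(U)`. -/
theorem IsMaxEAIn.le_thompsonOf {U A : Subgroup G} (h : IsMaxEAIn p U A) :
    A ≤ Cfsg.thompsonSubgroupOf p U := by
  have h1 : A = (A.subgroupOf U).map U.subtype := (Subgroup.map_subgroupOf_eq_of_le h.1).symm
  rw [h1]
  exact Subgroup.map_mono (le_sSup h.subgroupOf_mem)

/-- `J(U)` is generated by the largest elementary abelian subgroups of `U`. -/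
theorem thompsonOf_le_of_forall {U H : Subgroup G} (h : ∀ A, IsMaxEAIn p U A → A ≤ H) :
    Cfsg.thompsonSubgroupOf p U ≤ H := by
  rw [thompsonOf_eq_iSup]
  refine iSup_le ?_
  rintro ⟨A', hA'⟩
  exact h _ (isMaxEAIn_map_subtype hA')

theorem exists_isMaxEAIn [Finite G] (p : ℕ) (U : Subgroup G) : ∃ A, IsMaxEAIn p U A := by
  obtain ⟨A', hA'⟩ := exists_maxElemAb p ↥U
  exact ⟨_, isMaxEAIn_map_subtype hA'⟩

theorem thompsonOf_le_self (p : ℕ) (U : Subgroup G) : Cfsg.thompsonSubgroupOf p U ≤ U :=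
  Subgroup.map_subtype_le _

/-- Conjugating a largest elementary abelian subgroup of `U` by an element normalizing `U`. -/
theorem IsMaxEAIn.map_conj {U A : Subgroup G} (h : IsMaxEAIn p U A) {g : G}
    (hg : A.map (MulAut.conj g).toMonoidHom ≤ U) :
    IsMaxEAIn p U (A.map (MulAut.conj g).toMonoidHom) := by
  refine ⟨hg, elemAb_map h.2.1 _, ?_⟩
  intro B hBU hB
  rw [Subgroup.card_map_of_injective (MulAut.conj g).injective]
  exact h.2.2 B hBU hB

/-- `N_G(U)` normalizes `J(U)`. -/
theorem normalizer_le_normalizer_thompsonOf (p : ℕ) (U : Subgroup G) :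
    Subgroup.normalizer (U : Set G) ≤
      Subgroup.normalizer (Cfsg.thompsonSubgroupOf p U : Set G) := by
  have key : ∀ g ∈ Subgroup.normalizer (U : Set G), ∀ x ∈ Cfsg.thompsonSubgroupOf p U,
      g * x * g⁻¹ ∈ Cfsg.thompsonSubgroupOf p U := by
    intro g hg
    have hle : Cfsg.thompsonSubgroupOf p U ≤
        (Cfsg.thompsonSubgroupOf p U).comap (MulAut.conj g).toMonoidHom := by
      apply thompsonOf_le_of_forall
      intro A hA a ha
      rw [Subgroup.mem_comap]
      have hAU : A.map (MulAut.conj g).toMonoidHom ≤ U := by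
        rintro _ ⟨y, hy, rfl⟩
        exact (Subgroup.mem_normalizer_iff.mp hg y).mp (hA.1 hy)
      exact (hA.map_conj hAU).le_thompsonOf ⟨a, ha, rfl⟩
    intro x hx
    have := hle hx
    rw [Subgroup.mem_comap] at this
    simpa using this
  intro g hg
  rw [Subgroup.mem_normalizer_iff]
  intro x
  refine ⟨fun hx => key g hg x hx, fun hx => ?_⟩
  have := key g⁻¹ (Subgroup.inv_mem _ hg) _ hx
  have e : g⁻¹ * (g * x * g⁻¹) * g⁻¹⁻¹ = x := by group
  rwa [e] at this

/-- An elementary abelian subgroup of `U` commuting with a largest one lies in it. -/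
theorem IsMaxEAIn.le_of_commute [Finite G] {U A B : Subgroup G} (h : IsMaxEAIn p U A)
    (hBU : B ≤ U) (hB : Cfsg.IsElementaryAbelian p B)
    (hc : ∀ a ∈ A, ∀ b ∈ B, a * b = b * a) : B ≤ A := by
  have h1 : Cfsg.IsElementaryAbelian p (A ⊔ B) := elemAb_sup h.2.1 hB hc
  have h2 : Nat.card (A ⊔ B : Subgroup G) ≤ Nat.card A := h.2.2 _ (sup_le h.1 hBU) h1
  have h3 : A = A ⊔ B := Subgroup.eq_of_le_of_card_ge le_sup_left h2
  rw [h3]
  exact le_sup_right

/-- Any elementary abelian subgroup of `U` of the largest order is a largest one. -/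
theorem IsMaxEAIn.of_card_le {U A B : Subgroup G} (h : IsMaxEAIn p U A)
    (hBU : B ≤ U) (hB : Cfsg.IsElementaryAbelian p B) (hc : Nat.card A ≤ Nat.card B) :
    IsMaxEAIn p U B :=
  ⟨hBU, hB, fun C hCU hC => (h.2.2 C hCU hC).trans hc⟩

end Cfsg.Agent.Helper49
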