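import Cfsg.Prelude.Def_JComponents
import Cfsg.Agent.Helper49.ThompsonEA
import Cfsg.Agent.Helper47.YL
import Cfsg.Agent.Helper66.PGroupMisc
import Cfsg.Agent.Helper49.SylowControl

/-!
Helper49: the elementary structure of a `J(T)`-component `K` (see `Cfsg.IsJComponent`):
with `Q = O₂(K)`, `W = W_K`, `J = J(T)`, `S₀ = QJ`, the group `S₀` is a Sylow 2-subgroup of
`KJ`, `R = C_{S₀}(W)` has index two in it, and `Ω₁(Z(J)) = (Ω₁(Z(J)) ∩ Z(KJ)) (Ω₁(Z(J)) ∩ W)`.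
-/

set_option autoImplicit false

namespace Cfsg.Agent.Helper49

open scoped commutatorElement
open Cfsg.Agent.Helper10 Cfsg.Agent.Helper47

section general

variable {G : Type*} [Group G]

/-- conjugation invariance from the one-sided statement -/
theorem mem_normalizer_of_forall_conj {H N : Subgroup G}
    (h : ∀ g ∈ N, ∀ x ∈ H, g * x * g⁻¹ ∈ H) : N ≤ Subgroup.normalizer (H : Set G) := by
  intro g hg
  rw [Subgroup.mem_normalizer_iff]
  intro x
  refine ⟨fun hx => h g hg x hx, fun hx => ?_⟩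
  have := h g⁻¹ (N.inv_mem hg) _ hx
  have e : g⁻¹ * (g * x * g⁻¹) * g⁻¹⁻¹ = x := by group
  rwa [e] at this

theorem conj_mem_of_mem_normalizer {H : Subgroup G} {g x : G}
    (hg : g ∈ Subgroup.normalizer (H : Set G)) (hx : x ∈ H) : g * x * g⁻¹ ∈ H :=
  (Subgroup.mem_normalizer_iff.mp hg x).mp hx

theorem conj_inv_mem_of_mem_normalizer {H : Subgroup G} {g x : G}
    (hg : g ∈ Subgroup.normalizer (H : Set G)) (hx : x ∈ H) : g⁻¹ * x * g ∈ H := by
  have := conj_mem_of_mem_normalizer (Subgroup.inv_mem _ hg) hx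
  simpa using this

/-- `N_G(X) ≤ N_G(Ω₁(Z(X)))`. -/
theorem normalizer_le_normalizer_omegaCenterOf (X : Subgroup G) :
    Subgroup.normalizer (X : Set G) ≤ Subgroup.normalizer (Cfsg.omegaCenterOf X : Set G) := by
  apply mem_normalizer_of_forall_conj
  intro g hg x hx
  unfold Cfsg.omegaCenterOf Cfsg.omegaOne at hx ⊢
  induction hx using Subgroup.closure_induction with
  | mem y hy =>
    apply Subgroup.subset_closure
    obtain ⟨hyX, hyC⟩ := Subgroup.mem_inf.mp hy.1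
    refine ⟨Subgroup.mem_inf.mpr ⟨conj_mem_of_mem_normalizer hg hyX, ?_⟩, ?_⟩
    · rw [Subgroup.mem_centralizer_iff]
      intro h hh
      have h1 := conj_inv_mem_of_mem_normalizer hg hh
      have h2 := (Subgroup.mem_centralizer_iff.mp hyC) _ h1
      calc h * (g * y * g⁻¹) = g * ((g⁻¹ * h * g) * y) * g⁻¹ := by group
        _ = g * (y * (g⁻¹ * h * g)) * g⁻¹ := by rw [h2]
        _ = g * y * g⁻¹ * h := by group
    · rw [conj_pow, hy.2]; group
  | one => simp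
  | mul y z _ _ hy hz =>
    have e : g * (y * z) * g⁻¹ = (g * y * g⁻¹) * (g * z * g⁻¹) := by group
    rw [e]; exact Subgroup.mul_mem _ hy hz
  | inv y _ hy =>
    have e : g * y⁻¹ * g⁻¹ = (g * y * g⁻¹)⁻¹ := by group
    rw [e]; exact Subgroup.inv_mem _ hy

theorem omegaCenterOf_le (X : Subgroup G) :
    Cfsg.omegaCenterOf X ≤ X ⊓ Subgroup.centralizer (X : Set G) := by
  unfold Cfsg.omegaCenterOf Cfsg.omegaOne
  rw [Subgroup.closure_le]
  intro x hx
  exact hx.1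

theorem omegaCenterOf_sq (X : Subgroup G) : ∀ x ∈ Cfsg.omegaCenterOf X, x ^ 2 = 1 := by
  intro x hx
  have hc : ∀ y ∈ Cfsg.omegaCenterOf X, ∀ z ∈ Cfsg.omegaCenterOf X, y * z = z * y := by
    intro y hy z hz
    have h1 := (omegaCenterOf_le X hy).2
    have h2 := (omegaCenterOf_le X hz).1
    exact ((Subgroup.mem_centralizer_iff.mp h1) z h2).symm
  unfold Cfsg.omegaCenterOf Cfsg.omegaOne at hx
  induction hx using Subgroup.closure_induction with
  | mem y hy => exact hy.2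
  | one => simp
  | mul y z hy hz hy2 hz2 =>
    have hcm : Commute y z := hc y hy z hz
    rw [hcm.mul_pow, hy2, hz2, one_mul]
  | inv y _ hy => rw [inv_pow, hy, inv_one]

theorem mem_omegaCenterOf {X : Subgroup G} {x : G} (hx : x ∈ X)
    (hc : ∀ y ∈ X, y * x = x * y) (h2 : x ^ 2 = 1) : x ∈ Cfsg.omegaCenterOf X := by
  unfold Cfsg.omegaCenterOf Cfsg.omegaOne
  apply Subgroup.subset_closure
  exact ⟨⟨hx, Subgroup.mem_centralizer_iff.mpr hc⟩, h2⟩

/-- elements normalizing both subgroups normalize their commutator -/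
theorem normalizer_inf_le_normalizer_commutator (H₁ H₂ : Subgroup G) :
    Subgroup.normalizer (H₁ : Set G) ⊓ Subgroup.normalizer (H₂ : Set G) ≤
      Subgroup.normalizer ((⁅H₁, H₂⁆ : Subgroup G) : Set G) := by
  intro g hg
  obtain ⟨h1, h2⟩ := Subgroup.mem_inf.mp hg
  rw [Subgroup.mem_normalizer_iff_map_conj_eq] at h1 h2 ⊢
  rw [Subgroup.map_commutator, h1, h2]

/-- if `J` normalizes `K`, every element of `K ⊔ J` is a product `k * j` -/
theorem exists_mul_of_mem_sup {K J : Subgroup G} (hJ : J ≤ Subgroup.normalizer (K : Set G))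
    {x : G} (hx : x ∈ K ⊔ J) : ∃ k ∈ K, ∃ j ∈ J, x = k * j := by
  let M : Subgroup G :=
    { carrier := {x | ∃ k ∈ K, ∃ j ∈ J, x = k * j}
      one_mem' := ⟨1, K.one_mem, 1, J.one_mem, by simp⟩
      mul_mem' := by
        rintro _ _ ⟨k₁, hk₁, j₁, hj₁, rfl⟩ ⟨k₂, hk₂, j₂, hj₂, rfl⟩
        refine ⟨k₁ * (j₁ * k₂ * j₁⁻¹), K.mul_mem hk₁ (conj_mem_of_mem_normalizer (hJ hj₁) hk₂),
          j₁ * j₂, J.mul_mem hj₁ hj₂, by group⟩
      inv_mem' := by
        rintro _ ⟨k, hk, j, hj, rfl⟩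
        refine ⟨j⁻¹ * k⁻¹ * j, conj_inv_mem_of_mem_normalizer (hJ hj) (K.inv_mem hk),
          j⁻¹, J.inv_mem hj, by group⟩ }
  have hM : K ⊔ J ≤ M :=
    sup_le (fun k hk => ⟨k, hk, 1, J.one_mem, by simp⟩) (fun j hj => ⟨1, K.one_mem, j, hj, by simp⟩)
  exact hM hx

/-- `⁅K, J⁆ = K` forces `J` to normalize `K` -/
theorem le_normalizer_of_commutator_eq {K J : Subgroup G} (h : ⁅K, J⁆ = K) :
    J ≤ Subgroup.normalizer (K : Set G) := by
  apply mem_normalizer_of_forall_conj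
  intro j hj x hx
  have h1 : ⁅x⁻¹, j⁆ ∈ ⁅K, J⁆ := Subgroup.commutator_mem_commutator (K.inv_mem hx) hj
  rw [h] at h1
  have e : j * x * j⁻¹ = x * ⁅x⁻¹, j⁆ := by
    rw [commutatorElement_def]; group
  rw [e]
  exact K.mul_mem hx h1

end general

/-! ### Four-groups -/

section four

variable {G : Type*} [Group G]

theorem four_enum {W : Subgroup G} (hW4 : Nat.card W = 4) (hW2 : ∀ w ∈ W, w * w = 1)
    {u v : G} (hu : u ∈ W) (hv : v ∈ W) (hu1 : u ≠ 1) (hv1 : v ≠ 1) (hvu : v ≠ u) :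
    ∀ x ∈ W, x = 1 ∨ x = u ∨ x = v ∨ x = u * v := by
  classical
  have hv2 : v * v = 1 := hW2 v hv
  have huv1 : u * v ≠ 1 := by
    intro h
    apply hvu
    have : u = v⁻¹ := eq_inv_of_mul_eq_one_left h
    rw [this]
    exact (eq_inv_of_mul_eq_one_left hv2)
  have huvu : u * v ≠ u := by
    intro h; apply hv1; exact mul_eq_left.mp h
  have huvv : u * v ≠ v := by
    intro h; apply hu1; exact mul_eq_right.mp h
  let s : Finset G := {1, u, v, u * v}
  have hs : s.card = 4 := by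
    have h1 : (1 : G) ∉ ({u, v, u * v} : Finset G) := by
      simp only [Finset.mem_insert, Finset.mem_singleton, not_or]
      exact ⟨fun h => hu1 h.symm, fun h => hv1 h.symm, fun h => huv1 h.symm⟩
    have h2 : u ∉ ({v, u * v} : Finset G) := by
      simp only [Finset.mem_insert, Finset.mem_singleton, not_or]
      exact ⟨fun h => hvu h.symm, fun h => huvu h.symm⟩
    have h3 : v ∉ ({u * v} : Finset G) := by
      simp only [Finset.mem_singleton]
      exact fun h => huvv h.symm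
    rw [Finset.card_insert_of_notMem h1, Finset.card_insert_of_notMem h2,
      Finset.card_insert_of_notMem h3, Finset.card_singleton]
  have hsW : (s : Set G) ⊆ (W : Set G) := by
    intro x hx
    simp only [s, Finset.coe_insert, Finset.coe_singleton, Set.mem_insert_iff,
      Set.mem_singleton_iff] at hx
    rcases hx with rfl | rfl | rfl | rfl
    · exact W.one_mem
    · exact hu
    · exact hv
    · exact W.mul_mem hu hv
  have hfin : Finite ↥W := Nat.finite_of_card_ne_zero (by rw [hW4]; norm_num)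
  have hWfin : (W : Set G).Finite := Set.toFinite _
  have hcard : (W : Set G).ncard = 4 := by
    rw [← Nat.card_coe_set_eq]; exact hW4
  have heq : (s : Set G) = (W : Set G) :=
    Set.eq_of_subset_of_ncard_le hsW (by rw [hcard, Set.ncard_coe_finset, hs]) hWfin
  intro x hx
  have hxs : x ∈ (s : Set G) := by rw [heq]; exact hx
  simpa [s] using hxs

theorem four_conj {W : Subgroup G} (hW4 : Nat.card W = 4) (hW2 : ∀ w ∈ W, w * w = 1)
    {g u v : G} (hg : g ∈ Subgroup.normalizer (W : Set G)) (hu : u ∈ W) (hu1 : u ≠ 1)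
    (hgu : g * u * g⁻¹ = u) (hv : v ∈ W) (hgv : g * v * g⁻¹ ≠ v) :
    g * v * g⁻¹ = u * v ∧ v ≠ 1 ∧ v ≠ u := by
  have hv1 : v ≠ 1 := by
    rintro rfl; apply hgv; group
  have hvu : v ≠ u := by
    rintro rfl; exact hgv hgu
  refine ⟨?_, hv1, hvu⟩
  have hmem : g * v * g⁻¹ ∈ W := conj_mem_of_mem_normalizer hg hv
  rcases four_enum hW4 hW2 hu hv hu1 hv1 hvu _ hmem with h | h | h | h
  · exfalso; apply hv1
    have e : v = g⁻¹ * (g * v * g⁻¹) * g := by group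
    rw [e, h]; group
  · exfalso; apply hvu
    have e : g * v * g⁻¹ = g * u * g⁻¹ := by rw [h, hgu]
    exact mul_left_cancel (mul_right_cancel e)
  · exact absurd h hgv
  · exact h

theorem four_fix {W : Subgroup G} (hW4 : Nat.card W = 4) (hW2 : ∀ w ∈ W, w * w = 1)
    {g u v : G} (hg : g ∈ Subgroup.normalizer (W : Set G)) (hu : u ∈ W) (hu1 : u ≠ 1)
    (hgu : g * u * g⁻¹ = u) (hv : v ∈ W) (hgv : g * v * g⁻¹ ≠ v) :
    ∀ x ∈ W, g * x * g⁻¹ = x → x = 1 ∨ x = u := by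
  obtain ⟨h1, hv1, hvu⟩ := four_conj hW4 hW2 hg hu hu1 hgu hv hgv
  intro x hx hgx
  rcases four_enum hW4 hW2 hu hv hu1 hv1 hvu x hx with h | h | h | h
  · left; exact h
  · right; exact h
  · exfalso; rw [h] at hgx; exact hgv hgx
  · exfalso
    rw [h] at hgx
    have e : g * (u * v) * g⁻¹ = (g * u * g⁻¹) * (g * v * g⁻¹) := by group
    rw [e, hgu, h1, ← mul_assoc, hW2 u hu, one_mul] at hgx
    exact hu1 (mul_eq_right.mp hgx.symm)

theorem conj_eq_iff_comm {x w : G} : x * w * x⁻¹ = w ↔ w * x = x * w := by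
  rw [mul_inv_eq_iff_eq_mul]
  exact eq_comm

theorem mem_of_pow_mem_of_coprime {H : Subgroup G} {x : G} {m n : ℕ} (hmn : Nat.Coprime m n)
    (hm : x ^ m ∈ H) (hn : x ^ n ∈ H) : x ∈ H := by
  have h := Int.gcd_eq_gcd_ab m n
  have hg : Int.gcd (m : ℤ) (n : ℤ) = 1 := by
    rw [Int.gcd_natCast_natCast]; exact hmn
  have e : x = (x ^ m) ^ (Int.gcdA m n) * (x ^ n) ^ (Int.gcdB m n) := by
    rw [← zpow_natCast, ← zpow_natCast, ← zpow_mul, ← zpow_mul, ← zpow_add, ← h, hg]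
    simp
  rw [e]
  exact H.mul_mem (H.zpow_mem hm _) (H.zpow_mem hn _)

end four

/-! ### The data of a `J`-component -/

section jc

variable {G : Type*} [Group G]

/-- The data of a `J(T)`-component `K`, with `J` standing for `J(T)`. -/
structure JC (K J : Subgroup G) : Prop where
  hJ2 : IsPGroup 2 J
  gen : Subgroup.closure {g : G | g ∈ K ∧ Odd (orderOf g)} = K
  comm : ⁅K, J⁆ = K
  idx : (Cfsg.pCoreOf 2 K).relIndex K = 3
  thom : ∀ S : Subgroup G, Cfsg.IsSylowTwoIn S (K ⊔ J) → J ≤ S → Cfsg.thompsonSubgroupOf 2 S = J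
  card4 : Nat.card (Cfsg.wOf K) = 4
  sq : ∀ w ∈ Cfsg.wOf K, w * w = 1

/-- `S₀ = O₂(K) J` -/
def jcS (K J : Subgroup G) : Subgroup G := Cfsg.pCoreOf 2 K ⊔ J

/-- `R = C_{S₀}(W_K)` -/
def jcR (K J : Subgroup G) : Subgroup G :=
  jcS K J ⊓ Subgroup.centralizer (Cfsg.wOf K : Set G)

variable {K J : Subgroup G}

namespace JC

theorem J_le_normK (h : JC K J) : J ≤ Subgroup.normalizer (K : Set G) :=
  le_normalizer_of_commutator_eq h.comm

theorem Q_le (_h : JC K J) : Cfsg.pCoreOf 2 K ≤ K := pCoreOf_le 2 K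

theorem normK_le_normQ [Finite G] (_h : JC K J) :
    Subgroup.normalizer (K : Set G) ≤ Subgroup.normalizer (Cfsg.pCoreOf 2 K : Set G) :=
  normalizer_le_normalizer_pCoreOf K

theorem normK_le_normOmega [Finite G] (h : JC K J) :
    Subgroup.normalizer (K : Set G) ≤
      Subgroup.normalizer (Cfsg.omegaCenterOf (Cfsg.pCoreOf 2 K) : Set G) :=
  h.normK_le_normQ.trans (normalizer_le_normalizer_omegaCenterOf _)

theorem normK_le_normW [Finite G] (h : JC K J) :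
    Subgroup.normalizer (K : Set G) ≤ Subgroup.normalizer (Cfsg.wOf K : Set G) := by
  unfold Cfsg.wOf
  exact (le_inf h.normK_le_normOmega le_rfl).trans (normalizer_inf_le_normalizer_commutator _ _)

theorem W_le_omega [Finite G] (h : JC K J) :
    Cfsg.wOf K ≤ Cfsg.omegaCenterOf (Cfsg.pCoreOf 2 K) := by
  unfold Cfsg.wOf
  rw [Subgroup.commutator_le]
  intro a ha k hk
  have h1 : k * a⁻¹ * k⁻¹ ∈ Cfsg.omegaCenterOf (Cfsg.pCoreOf 2 K) :=
    conj_mem_of_mem_normalizer (h.normK_le_normOmega (Subgroup.le_normalizer hk))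
      (Subgroup.inv_mem _ ha)
  have e : ⁅a, k⁆ = a * (k * a⁻¹ * k⁻¹) := by
    rw [commutatorElement_def]; group
  rw [e]
  exact Subgroup.mul_mem _ ha h1

theorem W_le_Q [Finite G] (h : JC K J) : Cfsg.wOf K ≤ Cfsg.pCoreOf 2 K :=
  fun _ hw => (omegaCenterOf_le _ (h.W_le_omega hw)).1

theorem Q_le_centW [Finite G] (h : JC K J) :
    Cfsg.pCoreOf 2 K ≤ Subgroup.centralizer (Cfsg.wOf K : Set G) := by
  intro q hq
  rw [Subgroup.mem_centralizer_iff]
  intro w hw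
  have h1 := (omegaCenterOf_le _ (h.W_le_omega hw)).2
  exact ((Subgroup.mem_centralizer_iff.mp h1) q hq).symm

theorem W_comm [Finite G] (h : JC K J) :
    ∀ a ∈ Cfsg.wOf K, ∀ b ∈ Cfsg.wOf K, a * b = b * a := by
  intro a ha b hb
  exact ((Subgroup.mem_centralizer_iff.mp (h.Q_le_centW (h.W_le_Q hb))) a ha)

theorem W_inv [Finite G] (h : JC K J) : ∀ w ∈ Cfsg.wOf K, w⁻¹ = w := by
  intro w hw
  exact inv_eq_of_mul_eq_one_left (h.sq w hw)

theorem W_elemAb [Finite G] (h : JC K J) : Cfsg.IsElementaryAbelian 2 (Cfsg.wOf K) := by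
  rw [elemAb_iff]
  exact ⟨h.W_comm, fun a ha => by rw [pow_two]; exact h.sq a ha⟩

/-- `K` does not centralize `W_K`. -/
theorem K_not_central [Finite G] (h : JC K J) :
    ¬ K ≤ Subgroup.centralizer (Cfsg.wOf K : Set G) := by
  intro hc
  have hodd : ∀ k ∈ K, Odd (orderOf k) →
      k ∈ Subgroup.centralizer (Cfsg.omegaCenterOf (Cfsg.pCoreOf 2 K) : Set G) := by
    intro k hk hodd
    rw [Subgroup.mem_centralizer_iff]
    intro v hv
    -- `k v k⁻¹ = v u` with `u ∈ W`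
    set u : G := v⁻¹ * (k * v * k⁻¹) with hu
    have huW : u ∈ Cfsg.wOf K := by
      have h1 : ⁅v⁻¹, k⁆ ∈ ⁅Cfsg.omegaCenterOf (Cfsg.pCoreOf 2 K), K⁆ :=
        Subgroup.commutator_mem_commutator (Subgroup.inv_mem _ hv) hk
      have e : u = ⁅v⁻¹, k⁆ := by
        rw [commutatorElement_def, hu]; group
      rw [e]; exact h1
    have hku : k * u = u * k := ((Subgroup.mem_centralizer_iff.mp (hc hk)) u huW).symm
    have hpow : ∀ n : ℕ, k ^ n * v * (k ^ n)⁻¹ = v * u ^ n := by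
      intro n
      induction n with
      | zero => simp
      | succ n ih =>
        have hkun : k * u ^ n = u ^ n * k := (Commute.pow_right (show Commute k u from hku) n)
        calc k ^ (n + 1) * v * (k ^ (n + 1))⁻¹ = k * (k ^ n * v * (k ^ n)⁻¹) * k⁻¹ := by
              rw [pow_succ']; group
          _ = k * (v * u ^ n) * k⁻¹ := by rw [ih]
          _ = (k * v * k⁻¹) * (k * u ^ n * k⁻¹) := by group
          _ = (v * u) * (u ^ n) := by
              rw [hkun]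
              have e1 : k * v * k⁻¹ = v * u := by rw [hu]; group
              rw [e1]; group
          _ = v * u ^ (n + 1) := by rw [pow_succ']; group
    have h1 := hpow (orderOf k)
    rw [pow_orderOf_eq_one] at h1
    have h2 : u ^ orderOf k = 1 := by
      have : v = v * u ^ orderOf k := by simpa using h1
      exact (mul_eq_left.mp this.symm)
    have h3 : u ^ 2 = 1 := by rw [pow_two]; exact h.sq u huW
    have h4 : u = 1 := by
      obtain ⟨m, hm⟩ := hodd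
      rw [hm, pow_succ, pow_mul, h3, one_pow, one_mul] at h2
      exact h2
    have h5 : k * v * k⁻¹ = v := by
      have : v⁻¹ * (k * v * k⁻¹) = 1 := by rw [← hu, h4]
      exact (inv_mul_eq_one.mp this).symm
    exact (conj_eq_iff_comm.mp h5)
  have hK : K ≤ Subgroup.centralizer (Cfsg.omegaCenterOf (Cfsg.pCoreOf 2 K) : Set G) := by
    have h1 : Subgroup.closure {g : G | g ∈ K ∧ Odd (orderOf g)} ≤
        Subgroup.centralizer (Cfsg.omegaCenterOf (Cfsg.pCoreOf 2 K) : Set G) := by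
      rw [Subgroup.closure_le]
      intro k hk
      exact hodd k hk.1 hk.2
    rwa [h.gen] at h1
  have hbot : Cfsg.wOf K = ⊥ := by
    unfold Cfsg.wOf
    rw [Subgroup.commutator_eq_bot_iff_le_centralizer, Subgroup.le_centralizer_iff]
    exact hK
  have := h.card4
  rw [hbot] at this
  simp at this

theorem pow_three_mem [Finite G] (h : JC K J) : ∀ k ∈ K, k ^ 3 ∈ Cfsg.pCoreOf 2 K := by
  intro k hk
  have e : (Cfsg.pCoreOf 2 K).subgroupOf K = Cfsg.pCore 2 ↥K :=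
    Subgroup.comap_map_eq_self_of_injective K.subtype_injective _
  have hidx : (Cfsg.pCore 2 ↥K).index = 3 := by
    rw [← e]; exact h.idx
  have h1 := Subgroup.pow_index_mem (Cfsg.pCore 2 ↥K) (⟨k, hk⟩ : ↥K)
  rw [hidx] at h1
  exact ⟨⟨k, hk⟩ ^ 3, h1, rfl⟩

theorem centW_le_Q [Finite G] (h : JC K J) :
    K ⊓ Subgroup.centralizer (Cfsg.wOf K : Set G) ≤ Cfsg.pCoreOf 2 K := by
  have hQC : Cfsg.pCoreOf 2 K ≤ K ⊓ Subgroup.centralizer (Cfsg.wOf K : Set G) :=
    le_inf h.Q_le h.Q_le_centW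
  have hCK : K ⊓ Subgroup.centralizer (Cfsg.wOf K : Set G) ≤ K := inf_le_left
  have hmul := Subgroup.relIndex_mul_relIndex _ _ _ hQC hCK
  rw [h.idx] at hmul
  have hne : (K ⊓ Subgroup.centralizer (Cfsg.wOf K : Set G)).relIndex K ≠ 1 := by
    intro h1
    rw [Subgroup.relIndex_eq_one] at h1
    exact h.K_not_central (h1.trans inf_le_right)
  have hdvd : (K ⊓ Subgroup.centralizer (Cfsg.wOf K : Set G)).relIndex K ∣ 3 :=
    Dvd.intro_left _ hmul
  have h3 : (K ⊓ Subgroup.centralizer (Cfsg.wOf K : Set G)).relIndex K = 3 := by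
    rcases (Nat.dvd_prime Nat.prime_three).mp hdvd with h' | h'
    · exact absurd h' hne
    · exact h'
  rw [h3] at hmul
  have h1 : (Cfsg.pCoreOf 2 K).relIndex (K ⊓ Subgroup.centralizer (Cfsg.wOf K : Set G)) = 1 := by
    omega
  exact Subgroup.relIndex_eq_one.mp h1

theorem two_elt_mem_Q [Finite G] (h : JC K J) {k : G} (hk : k ∈ K) {n : ℕ}
    (hn : k ^ 2 ^ n = 1) : k ∈ Cfsg.pCoreOf 2 K :=
  mem_of_pow_mem_of_coprime (m := 3) (n := 2 ^ n) (Nat.Coprime.pow_right n (by norm_num))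
    (h.pow_three_mem k hk) (by rw [hn]; exact Subgroup.one_mem _)

theorem S_le_normK (h : JC K J) : jcS K J ≤ Subgroup.normalizer (K : Set G) :=
  sup_le (h.Q_le.trans Subgroup.le_normalizer) h.J_le_normK

theorem S_le_normW [Finite G] (h : JC K J) :
    jcS K J ≤ Subgroup.normalizer (Cfsg.wOf K : Set G) :=
  h.S_le_normK.trans h.normK_le_normW

theorem S_isPGroup [Finite G] (h : JC K J) : IsPGroup 2 (jcS K J) :=
  IsPGroup.to_sup_of_normal_left' (pCoreOf_isPGroup K) h.hJ2 (h.J_le_normK.trans h.normK_le_normQ)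

theorem W_le_S [Finite G] (h : JC K J) : Cfsg.wOf K ≤ jcS K J := h.W_le_Q.trans le_sup_left

theorem J_le_S (_h : JC K J) : J ≤ jcS K J := le_sup_right

theorem Q_le_S (_h : JC K J) : Cfsg.pCoreOf 2 K ≤ jcS K J := le_sup_left

theorem R_le_S (_h : JC K J) : jcR K J ≤ jcS K J := inf_le_left

theorem R_le_centW (_h : JC K J) : jcR K J ≤ Subgroup.centralizer (Cfsg.wOf K : Set G) :=
  inf_le_right

/-- `S₀ = O₂(K) J` is a Sylow 2-subgroup of `K J`. -/
theorem S_sylow [Finite G] (h : JC K J) : Cfsg.IsSylowTwoIn (jcS K J) (K ⊔ J) := by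
  have hSX : jcS K J ≤ K ⊔ J := sup_le (h.Q_le.trans le_sup_left) le_sup_right
  obtain ⟨P', hP'⟩ := (h.S_isPGroup.comap_subtype (K := K ⊔ J)).exists_le_sylow
  have hSP : ∀ x (hx : x ∈ jcS K J), (⟨x, hSX hx⟩ : ↥(K ⊔ J)) ∈ (P' : Subgroup ↥(K ⊔ J)) :=
    fun x hx => hP' (Subgroup.mem_subgroupOf.mpr hx)
  have hPS : (P' : Subgroup ↥(K ⊔ J)).map (K ⊔ J).subtype ≤ jcS K J := by
    rintro _ ⟨p, hp, rfl⟩
    obtain ⟨k, hk, j, hj, hpkj⟩ := exists_mul_of_mem_sup h.J_le_normK p.2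
    have hjP := hSP j (h.J_le_S hj)
    have hkP : (⟨k, (le_sup_left : K ≤ K ⊔ J) hk⟩ : ↥(K ⊔ J)) ∈ (P' : Subgroup ↥(K ⊔ J)) := by
      have e : (⟨k, (le_sup_left : K ≤ K ⊔ J) hk⟩ : ↥(K ⊔ J)) =
          p * (⟨j, hSX (h.J_le_S hj)⟩ : ↥(K ⊔ J))⁻¹ := by
        apply Subtype.ext
        simp [hpkj]
      rw [e]
      exact Subgroup.mul_mem _ hp (Subgroup.inv_mem _ hjP)
    obtain ⟨n, hn⟩ := P'.isPGroup' ⟨_, hkP⟩
    have hkn : k ^ 2 ^ n = 1 := by
      have := congrArg (fun x : ↥(P' : Subgroup ↥(K ⊔ J)) => ((x : ↥(K ⊔ J)) : G)) hn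
      simpa using this
    have hkQ := h.two_elt_mem_Q hk hkn
    show (p : G) ∈ jcS K J
    rw [hpkj]
    exact Subgroup.mul_mem _ (h.Q_le_S hkQ) (h.J_le_S hj)
  have heq : (P' : Subgroup ↥(K ⊔ J)).map (K ⊔ J).subtype = jcS K J :=
    le_antisymm hPS (fun x hx => ⟨⟨x, hSX hx⟩, hSP x hx, rfl⟩)
  have h1 := (exists_sylow_map_eq_iff 2 (jcS K J) (K ⊔ J)).mp ⟨P', heq⟩
  refine ⟨h1.1, h1.2.1, Nat.odd_iff.mpr ?_⟩
  have := h1.2.2
  omega

theorem thomS [Finite G] (h : JC K J) : Cfsg.thompsonSubgroupOf 2 (jcS K J) = J :=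
  h.thom _ h.S_sylow h.J_le_S

/-- A nontrivial element of `W_K` centralized by `S₀`. -/
theorem exists_w0 [Finite G] (h : JC K J) :
    ∃ w₀ ∈ Cfsg.wOf K, w₀ ≠ 1 ∧ ∀ s ∈ jcS K J, s * w₀ * s⁻¹ = w₀ := by
  have : ((Cfsg.wOf K).subgroupOf (jcS K J)).Normal :=
    (Subgroup.normal_subgroupOf_iff_le_normalizer h.W_le_S).mpr h.S_le_normW
  have hne : (Cfsg.wOf K).subgroupOf (jcS K J) ≠ ⊥ := by
    intro hbot
    have hcard : Nat.card ((Cfsg.wOf K).subgroupOf (jcS K J)) = 4 := by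
      rw [Nat.card_congr (Subgroup.subgroupOfEquivOfLe h.W_le_S).toEquiv]; exact h.card4
    rw [hbot] at hcard
    simp at hcard
  obtain ⟨z, hzW, hz1, hzc⟩ :=
    Cfsg.Agent.Helper66.exists_mem_center_of_normal 2 h.S_isPGroup _ hne
  refine ⟨(z : G), Subgroup.mem_subgroupOf.mp hzW, fun h1 => hz1 (Subtype.ext h1), ?_⟩
  intro s hs
  have h2 : s * (z : G) = (z : G) * s :=
    congrArg Subtype.val ((Subgroup.mem_center_iff.mp hzc) ⟨s, hs⟩)
  rw [h2]; group

/-- For `k ∈ K` and `r ∈ R = C_{S₀}(W)`, the commutator `k r k⁻¹ r⁻¹` lies in `O₂(K)`. -/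
theorem comm_mem_Q [Finite G] (h : JC K J) {k r : G} (hk : k ∈ K) (hr : r ∈ jcR K J) :
    k * r * k⁻¹ * r⁻¹ ∈ Cfsg.pCoreOf 2 K := by
  obtain ⟨hrS, hrC⟩ := Subgroup.mem_inf.mp hr
  apply h.centW_le_Q
  refine Subgroup.mem_inf.mpr ⟨?_, ?_⟩
  · have h1 : r * k⁻¹ * r⁻¹ ∈ K :=
      conj_mem_of_mem_normalizer (h.S_le_normK hrS) (K.inv_mem hk)
    have e : k * r * k⁻¹ * r⁻¹ = k * (r * k⁻¹ * r⁻¹) := by group
    rw [e]; exact K.mul_mem hk h1
  · rw [Subgroup.mem_centralizer_iff]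
    intro w hw
    have hkN : k ∈ Subgroup.normalizer (Cfsg.wOf K : Set G) :=
      h.normK_le_normW (Subgroup.le_normalizer hk)
    have hw' : k⁻¹ * w * k ∈ Cfsg.wOf K := conj_inv_mem_of_mem_normalizer hkN hw
    have h1 : (k⁻¹ * w * k) * r = r * (k⁻¹ * w * k) :=
      (Subgroup.mem_centralizer_iff.mp hrC) _ hw'
    have h2 : Commute w r := (Subgroup.mem_centralizer_iff.mp hrC) _ hw
    have h3 : w * r⁻¹ = r⁻¹ * w := (Commute.inv_right h2).eq
    calc w * (k * r * k⁻¹ * r⁻¹) = k * ((k⁻¹ * w * k) * r) * k⁻¹ * r⁻¹ := by group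
      _ = k * (r * (k⁻¹ * w * k)) * k⁻¹ * r⁻¹ := by rw [h1]
      _ = k * r * k⁻¹ * (w * r⁻¹) := by group
      _ = k * r * k⁻¹ * (r⁻¹ * w) := by rw [h3]
      _ = (k * r * k⁻¹ * r⁻¹) * w := by group

/-- `K` normalizes `R`. -/
theorem conj_mem_R [Finite G] (h : JC K J) {k r : G} (hk : k ∈ K) (hr : r ∈ jcR K J) :
    k * r * k⁻¹ ∈ jcR K J := by
  have h1 := h.comm_mem_Q hk hr
  have e : k * r * k⁻¹ = (k * r * k⁻¹ * r⁻¹) * r := by group
  rw [e]
  exact Subgroup.mul_mem _ (Subgroup.mem_inf.mpr ⟨h.Q_le_S h1, h.Q_le_centW h1⟩) hr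

theorem J_not_central [Finite G] (h : JC K J) :
    ¬ J ≤ Subgroup.centralizer (Cfsg.wOf K : Set G) := by
  intro hc
  have hle : ⁅K, J⁆ ≤ Cfsg.pCoreOf 2 K := by
    rw [Subgroup.commutator_le]
    intro k hk j hj
    have := h.comm_mem_Q hk (Subgroup.mem_inf.mpr ⟨h.J_le_S hj, hc hj⟩)
    rwa [commutatorElement_def]
  rw [h.comm] at hle
  have h1 : (Cfsg.pCoreOf 2 K).relIndex K = 1 := Subgroup.relIndex_eq_one.mpr hle
  rw [h.idx] at h1
  norm_num at h1

theorem exists_moved {a : G} (ha : a ∉ Subgroup.centralizer (Cfsg.wOf K : Set G)) :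
    ∃ v ∈ Cfsg.wOf K, a * v * a⁻¹ ≠ v := by
  by_contra hcon
  push Not at hcon
  apply ha
  rw [Subgroup.mem_centralizer_iff]
  intro w hw
  exact conj_eq_iff_comm.mp (hcon w hw)

/-- An element of `S₀` outside `R` fixes exactly `1` and `w₀` in `W`. -/
theorem fix_of_not_central [Finite G] (h : JC K J) {w₀ : G} (hw₀ : w₀ ∈ Cfsg.wOf K)
    (hw₀1 : w₀ ≠ 1) (hfix : ∀ s ∈ jcS K J, s * w₀ * s⁻¹ = w₀) {a : G} (ha : a ∈ jcS K J)
    (haR : a ∉ Subgroup.centralizer (Cfsg.wOf K : Set G)) :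
    ∀ x ∈ Cfsg.wOf K, a * x * a⁻¹ = x → x = 1 ∨ x = w₀ := by
  obtain ⟨v, hv, hav⟩ := exists_moved haR
  exact four_fix h.card4 h.sq (h.S_le_normW ha) hw₀ hw₀1 (hfix a ha) hv hav

/-- `R` has index at most two in `S₀`. -/
theorem inv_mul_mem_R [Finite G] (h : JC K J) {a b : G} (ha : a ∈ jcS K J) (hb : b ∈ jcS K J)
    (haR : a ∉ Subgroup.centralizer (Cfsg.wOf K : Set G))
    (hbR : b ∉ Subgroup.centralizer (Cfsg.wOf K : Set G)) : a⁻¹ * b ∈ jcR K J := by
  obtain ⟨w₀, hw₀, hw₀1, hfix⟩ := h.exists_w0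
  obtain ⟨v, hv, hav⟩ := exists_moved haR
  obtain ⟨hav', hv1, hvw⟩ := four_conj h.card4 h.sq (h.S_le_normW ha) hw₀ hw₀1 (hfix a ha) hv hav
  have hbv : b * v * b⁻¹ ≠ v := by
    intro hcon
    rcases h.fix_of_not_central hw₀ hw₀1 hfix hb hbR v hv hcon with h1 | h1
    · exact hv1 h1
    · exact hvw h1
  obtain ⟨hbv', -, -⟩ := four_conj h.card4 h.sq (h.S_le_normW hb) hw₀ hw₀1 (hfix b hb) hv hbv
  refine Subgroup.mem_inf.mpr ⟨Subgroup.mul_mem _ (Subgroup.inv_mem _ ha) hb, ?_⟩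
  rw [Subgroup.mem_centralizer_iff]
  have hfv : (a⁻¹ * b) * v * (a⁻¹ * b)⁻¹ = v := by
    calc (a⁻¹ * b) * v * (a⁻¹ * b)⁻¹ = a⁻¹ * (b * v * b⁻¹) * a := by group
      _ = a⁻¹ * (a * v * a⁻¹) * a := by rw [hbv', hav']
      _ = v := by group
  have hfw : (a⁻¹ * b) * w₀ * (a⁻¹ * b)⁻¹ = w₀ := by
    calc (a⁻¹ * b) * w₀ * (a⁻¹ * b)⁻¹ = a⁻¹ * (b * w₀ * b⁻¹) * a := by group
      _ = a⁻¹ * (a * w₀ * a⁻¹) * a := by rw [hfix b hb, hfix a ha]
      _ = w₀ := by group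
  intro x hx
  apply conj_eq_iff_comm.mp
  rcases four_enum h.card4 h.sq hw₀ hv hw₀1 hv1 hvw x hx with h1 | h1 | h1 | h1
  · rw [h1]; group
  · rw [h1]; exact hfw
  · rw [h1]; exact hfv
  · rw [h1]
    calc (a⁻¹ * b) * (w₀ * v) * (a⁻¹ * b)⁻¹
        = ((a⁻¹ * b) * w₀ * (a⁻¹ * b)⁻¹) * ((a⁻¹ * b) * v * (a⁻¹ * b)⁻¹) := by group
      _ = w₀ * v := by rw [hfw, hfv]

/-- An element of `K` outside `O₂(K)` fixes no involution of `W`. -/
theorem K_moves [Finite G] (h : JC K J) {k : G} (hk : k ∈ K) (hkQ : k ∉ Cfsg.pCoreOf 2 K) :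
    ∀ u ∈ Cfsg.wOf K, k * u * k⁻¹ = u → u = 1 := by
  intro u hu hku
  by_contra hu1
  have hkC : k ∉ Subgroup.centralizer (Cfsg.wOf K : Set G) :=
    fun hc => hkQ (h.centW_le_Q (Subgroup.mem_inf.mpr ⟨hk, hc⟩))
  obtain ⟨v, hv, hkv⟩ := exists_moved hkC
  have hkN : k ∈ Subgroup.normalizer (Cfsg.wOf K : Set G) :=
    h.normK_le_normW (Subgroup.le_normalizer hk)
  obtain ⟨hkv', -, -⟩ := four_conj h.card4 h.sq hkN hu hu1 hku hv hkv
  have h3 : k ^ 3 * v * (k ^ 3)⁻¹ = v :=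
    conj_eq_iff_comm.mpr
      ((Subgroup.mem_centralizer_iff.mp (h.Q_le_centW (h.pow_three_mem k hk))) v hv)
  have hk3 : k ^ 3 = k * k * k := by rw [pow_succ, pow_two]
  have e : k ^ 3 * v * (k ^ 3)⁻¹ = k * (k * (k * v * k⁻¹) * k⁻¹) * k⁻¹ := by
    rw [hk3]; group
  have e2 : k * (u * v) * k⁻¹ = (k * u * k⁻¹) * (k * v * k⁻¹) := by group
  rw [e, hkv', e2, hku, hkv', ← mul_assoc u u v, h.sq u hu, one_mul, hkv'] at h3
  exact hu1 (mul_eq_right.mp h3)

end JC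

end jc

end Cfsg.Agent.Helper49
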