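/-
helper49: piece `SI` of CALL S2506 (helper12): two partitions with the same number of classes of
each size are conjugate under a permutation.
-/
import Mathlib
import Cfsg.Agent.Helper12.AMDefs

set_option autoImplicit false

namespace Cfsg.Agent.Helper49.AMSI

open Cfsg.Agent.Helper12.AM

/-- Two maps with fibres of equal cardinality differ by a bijection of the sources. -/
theorem exists_equiv_of_fiber_card {S T A : Type*} [Finite S] [Finite T] (f : S → A) (g : T → A)
    (h : ∀ a, Nat.card {s // f s = a} = Nat.card {t // g t = a}) :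
    ∃ e : S ≃ T, ∀ s, g (e s) = f s := by
  have he : ∀ a, Nonempty ({s // f s = a} ≃ {t // g t = a}) := fun a => Finite.card_eq.mp (h a)
  let F : ∀ a, {s // f s = a} ≃ {t // g t = a} := fun a => Classical.choice (he a)
  refine ⟨(Equiv.sigmaFiberEquiv f).symm.trans
    ((Equiv.sigmaCongrRight F).trans (Equiv.sigmaFiberEquiv g)), ?_⟩
  intro s
  exact (F (f s) ⟨s, rfl⟩).2

/-- The cardinality of a subtype cut out by membership in a finset. -/
theorem card_subtype_of_iff {β : Type*} (p : β → Prop) (Fs : Finset β)
    (h : ∀ x, p x ↔ x ∈ Fs) : Nat.card {x // p x} = Fs.card := by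
  rw [Nat.card_congr (Equiv.subtypeEquivRight h), Nat.card_eq_fintype_card, Fintype.card_coe]

/-- Counting the points lying in classes of size `k`. -/
theorem classes_count {β : Type*} [Fintype β] [DecidableEq β] (c : β → Finset β)
    (hc1 : ∀ x, x ∈ c x) (hc2 : ∀ x y, y ∈ c x → c y = c x) (k : ℕ) :
    ((Finset.univ.image c).filter (fun C => C.card = k)).card * k =
      (Finset.univ.filter (fun x => (c x).card = k)).card := by
  have H : ∀ x ∈ Finset.univ.filter (fun x => (c x).card = k),
      c x ∈ (Finset.univ.image c).filter (fun C => C.card = k) := by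
    intro x hx
    rw [Finset.mem_filter] at hx ⊢
    exact ⟨Finset.mem_image_of_mem c (Finset.mem_univ x), hx.2⟩
  rw [Finset.card_eq_sum_card_fiberwise H]
  have hsum : ∀ C ∈ (Finset.univ.image c).filter (fun C => C.card = k),
      ((Finset.univ.filter (fun x => (c x).card = k)).filter (fun a => c a = C)).card = k := by
    intro C hC
    rw [Finset.mem_filter, Finset.mem_image] at hC
    obtain ⟨⟨x0, -, rfl⟩, hk⟩ := hC
    have : (Finset.univ.filter (fun x => (c x).card = k)).filter (fun a => c a = c x0) = c x0 := by
      ext x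
      simp only [Finset.mem_filter, Finset.mem_univ, true_and]
      constructor
      · rintro ⟨-, hx⟩
        rw [← hx]; exact hc1 x
      · intro hx
        have := hc2 x0 x hx
        exact ⟨by rw [this]; exact hk, this⟩
    rw [this, hk]
  rw [Finset.sum_congr rfl hsum, Finset.sum_const, smul_eq_mul]

/-- The number of classes of size `k`, as the cardinality of a subtype of the type of classes. -/
theorem classes_fiber {β : Type*} [Fintype β] [DecidableEq β] (c : β → Finset β) (k : ℕ) :
    Nat.card {C : ↥(Finset.univ.image c) // C.1.card = k} =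
      ((Finset.univ.image c).filter (fun C => C.card = k)).card := by
  have e : {C : ↥(Finset.univ.image c) // C.1.card = k} ≃
      ↥((Finset.univ.image c).filter (fun C => C.card = k)) :=
    { toFun := fun C => ⟨C.1.1, Finset.mem_filter.mpr ⟨C.1.2, C.2⟩⟩
      invFun := fun C => ⟨⟨C.1, (Finset.mem_filter.mp C.2).1⟩, (Finset.mem_filter.mp C.2).2⟩
      left_inv := fun C => rfl
      right_inv := fun C => rfl }
  rw [Nat.card_congr e, Nat.card_eq_fintype_card, Fintype.card_coe]

/-- PIECE SI. -/
theorem part_perm {β : Type*} [Fintype β] [DecidableEq β] (c d : β → Finset β)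
    (hc1 : ∀ x, x ∈ c x) (hc2 : ∀ x y, y ∈ c x → c y = c x)
    (hd1 : ∀ x, x ∈ d x) (hd2 : ∀ x y, y ∈ d x → d y = d x)
    (h : ∀ k : ℕ, (Finset.univ.filter (fun x => (c x).card = k)).card =
      (Finset.univ.filter (fun x => (d x).card = k)).card) :
    ∃ σ : Equiv.Perm β, ∀ x y, σ y ∈ d (σ x) ↔ y ∈ c x := by
  -- a size-preserving bijection between the classes
  have hcls : ∀ k : ℕ, Nat.card {C : ↥(Finset.univ.image c) // C.1.card = k} =
      Nat.card {D : ↥(Finset.univ.image d) // D.1.card = k} := by
    intro k
    rw [classes_fiber, classes_fiber]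
    have h1 := classes_count c hc1 hc2 k
    have h2 := classes_count d hd1 hd2 k
    rcases Nat.eq_zero_or_pos k with hk | hk
    · subst hk
      have e1 : (Finset.univ.image c).filter (fun C => C.card = 0) = ∅ := by
        rw [Finset.filter_eq_empty_iff]
        intro C hC hC0
        obtain ⟨x, -, rfl⟩ := Finset.mem_image.mp hC
        rw [Finset.card_eq_zero] at hC0
        have := hc1 x
        rw [hC0] at this
        exact absurd this (Finset.notMem_empty x)
      have e2 : (Finset.univ.image d).filter (fun C => C.card = 0) = ∅ := by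
        rw [Finset.filter_eq_empty_iff]
        intro C hC hC0
        obtain ⟨x, -, rfl⟩ := Finset.mem_image.mp hC
        rw [Finset.card_eq_zero] at hC0
        have := hd1 x
        rw [hC0] at this
        exact absurd this (Finset.notMem_empty x)
      rw [e1, e2]
    · have h3 : ((Finset.univ.image c).filter (fun C => C.card = k)).card * k =
          ((Finset.univ.image d).filter (fun C => C.card = k)).card * k := by
        rw [h1, h2, h k]
      exact Nat.eq_of_mul_eq_mul_right hk h3
  obtain ⟨E, hE⟩ := exists_equiv_of_fiber_card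
    (fun C : ↥(Finset.univ.image c) => C.1.card) (fun D : ↥(Finset.univ.image d) => D.1.card) hcls
  -- the class of `x`, as an element of the type of classes
  let cc : β → ↥(Finset.univ.image c) :=
    fun x => ⟨c x, Finset.mem_image_of_mem c (Finset.mem_univ x)⟩
  have hfib : ∀ a : Finset β, Nat.card {x // (E (cc x)).1 = a} = Nat.card {y // d y = a} := by
    intro a
    by_cases ha : a ∈ Finset.univ.image d
    · have hd' : ∀ y, d y = a ↔ y ∈ a := by
        obtain ⟨y0, -, rfl⟩ := Finset.mem_image.mp ha
        intro y
        exact ⟨fun hy => hy ▸ hd1 y, fun hy => hd2 y0 y hy⟩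
      have hc' : ∀ x, (E (cc x)).1 = a ↔ x ∈ (E.symm ⟨a, ha⟩).1 := by
        intro x
        obtain ⟨x0, -, hx0⟩ := Finset.mem_image.mp (E.symm ⟨a, ha⟩).2
        constructor
        · intro hx
          have h1 : E (cc x) = ⟨a, ha⟩ := Subtype.ext hx
          have h2 : cc x = E.symm ⟨a, ha⟩ := by rw [← h1, Equiv.symm_apply_apply]
          have h3 : c x = (E.symm ⟨a, ha⟩).1 := congrArg Subtype.val h2
          rw [← h3]; exact hc1 x
        · intro hx
          rw [← hx0] at hx
          have h3 : c x = (E.symm ⟨a, ha⟩).1 := by rw [hc2 x0 x hx, hx0]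
          have h2 : cc x = E.symm ⟨a, ha⟩ := Subtype.ext h3
          rw [h2, Equiv.apply_symm_apply]
      rw [card_subtype_of_iff _ _ hc', card_subtype_of_iff _ _ hd']
      have := hE (E.symm ⟨a, ha⟩)
      rw [Equiv.apply_symm_apply] at this
      exact this.symm
    · have i1 : IsEmpty {x // (E (cc x)).1 = a} :=
        ⟨fun x => ha (x.2 ▸ (E (cc x.1)).2)⟩
      have i2 : IsEmpty {y // d y = a} :=
        ⟨fun y => ha (y.2 ▸ Finset.mem_image_of_mem d (Finset.mem_univ y.1))⟩
      rw [Nat.card_of_isEmpty, Nat.card_of_isEmpty]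
  obtain ⟨σ, hσ⟩ := exists_equiv_of_fiber_card (fun x : β => (E (cc x)).1) d hfib
  refine ⟨σ, fun x y => ?_⟩
  have hdiff : σ y ∈ d (σ x) ↔ d (σ y) = d (σ x) :=
    ⟨fun hy => hd2 (σ x) (σ y) hy, fun hy => hy ▸ hd1 (σ y)⟩
  rw [hdiff, hσ x, hσ y]
  constructor
  · intro hxy
    have h1 : E (cc y) = E (cc x) := Subtype.ext hxy
    have h2 : cc y = cc x := E.injective h1
    have h3 : c y = c x := congrArg Subtype.val h2
    rw [← h3]; exact hc1 y
  · intro hy
    have h3 : c y = c x := hc2 x y hy
    have h2 : cc y = cc x := Subtype.ext h3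
    rw [h2]

end Cfsg.Agent.Helper49.AMSI
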