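/-
helper49: piece `WMUL` of CALL S2506 (helper12): witnesses on disjoint sets multiply.
-/
import Mathlib
import Cfsg.Agent.Helper12.AMDefs
import Cfsg.Agent.Helper12.AMJOIN
import Cfsg.Agent.Helper12.AMJOINC

set_option autoImplicit false

namespace Cfsg.Agent.Helper49.AMWMUL

open Cfsg.Agent.Helper12.AM

variable {α : Type*} [Fintype α] [DecidableEq α]

/-- a permutation fixing every point outside `U` maps `U` to itself -/
theorem maps_of_fix (g : Equiv.Perm α) (U : Finset α) (h : ∀ x, x ∉ U → g x = x) (z : α)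
    (hz : z ∈ U) : g z ∈ U := by
  by_contra hgz
  have h1 := h (g z) hgz
  have h2 : g z = z := g.injective h1
  rw [h2] at hgz
  exact hgz hz

/-- PIECE WMUL -/
theorem wit_mul {m₁ m₂ w₁ w₂ : ℕ} (h₁ : Wit α m₁ w₁) (h₂ : Wit α m₂ w₂) :
    Wit α (m₁ + m₂) (w₁ * w₂) := by
  intro U hU
  obtain ⟨U₁, hU₁U, hU₁c⟩ := Finset.exists_subset_card_eq (s := U) (n := m₁) (by omega)
  have hU₂c : m₂ ≤ (U \ U₁).card := by
    rw [Finset.card_sdiff_of_subset hU₁U]; omega
  obtain ⟨N₁, hN₁a, hN₁c, hN₁f, hN₁w⟩ := h₁ U₁ (le_of_eq hU₁c.symm)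
  obtain ⟨N₂, hN₂a, hN₂c, hN₂f, hN₂w⟩ := h₂ (U \ U₁) hU₂c
  -- elements of `N₁` and `N₂` commute
  have hcomm : ∀ g ∈ N₁, ∀ k ∈ N₂, g * k = k * g := by
    intro g hg k hk
    ext z
    simp only [Equiv.Perm.mul_apply]
    by_cases hz : z ∈ U₁
    · have hkz : k z = z := hN₂f k hk z (fun h => (Finset.mem_sdiff.mp h).2 hz)
      have hgz : g z ∈ U₁ := maps_of_fix g U₁ (hN₁f g hg) z hz
      have hkgz : k (g z) = g z := hN₂f k hk (g z) (fun h => (Finset.mem_sdiff.mp h).2 hgz)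
      rw [hkz, hkgz]
    · have hgz : g z = z := hN₁f g hg z hz
      have hkz : k z ∉ U₁ := by
        by_cases hkU : k z ∈ U \ U₁
        · exact (Finset.mem_sdiff.mp hkU).2
        · have h1 := hN₂f k hk (k z) hkU
          have h2 : k z = z := k.injective h1
          rw [h2]; exact hz
      rw [hgz, hN₁f g hg (k z) hkz]
  have hdisj : N₁ ⊓ N₂ = ⊥ := by
    rw [eq_bot_iff]
    intro g hg
    rw [Subgroup.mem_bot]
    obtain ⟨hg1, hg2⟩ := Subgroup.mem_inf.mp hg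
    ext z
    by_cases hz : z ∈ U₁
    · exact hN₂f g hg2 z (fun h => (Finset.mem_sdiff.mp h).2 hz)
    · exact hN₁f g hg1 z hz
  -- the subgroup of permutations fixing every point outside `U`
  let Fx : Subgroup (Equiv.Perm α) :=
    { carrier := {g | ∀ x, x ∉ U → g x = x}
      mul_mem' := by
        intro a b ha hb x hx
        rw [Equiv.Perm.mul_apply, hb x hx, ha x hx]
      one_mem' := fun x _ => rfl
      inv_mem' := by
        intro a ha x hx
        rw [Equiv.Perm.inv_eq_iff_eq]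
        exact (ha x hx).symm }
  have hF1 : N₁ ≤ Fx := fun g hg x hx => hN₁f g hg x (fun h => hx (hU₁U h))
  have hF2 : N₂ ≤ Fx := fun g hg x hx => hN₂f g hg x (fun h => hx (Finset.mem_sdiff.mp h).1)
  refine ⟨N₁ ⊔ N₂, sup_le hN₁a hN₂a,
    Cfsg.Agent.Helper12.AMJOINC.comm_sup N₁ N₂ hN₁c hN₂c hcomm, ?_, ?_⟩
  · intro g hg x hx
    exact (sup_le hF1 hF2 hg) x hx
  · calc w₁ * w₂ ≤ Nat.card N₁ * Nat.card N₂ := Nat.mul_le_mul hN₁w hN₂w
      _ ≤ Nat.card (N₁ ⊔ N₂ : Subgroup (Equiv.Perm α)) :=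
        Cfsg.Agent.Helper12.AMJOIN.card_sup_ge N₁ N₂ hcomm hdisj

end Cfsg.Agent.Helper49.AMWMUL
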