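import Cfsg.Agent.Helper49.BSCore
import Mathlib.GroupTheory.SpecificGroups.Quaternion

/-!
# Facts on (generalized) quaternion groups used for Brauer–Suzuki

(helper49)  Involutions and centre of `QuaternionGroup N`; `Q8Data` for a subgroup isomorphic
to `QuaternionGroup 2`.
-/

set_option autoImplicit false

namespace Cfsg.Agent.Helper49

open QuaternionGroup

theorem quat_aN_ne_one {N : ℕ} (hN : N ≠ 0) :
    (a (N : ZMod (2 * N)) : QuaternionGroup N) ≠ 1 := by
  rw [one_def]
  intro h
  rw [a.injEq, ZMod.natCast_eq_zero_iff] at h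
  have := Nat.le_of_dvd (Nat.pos_of_ne_zero hN) h
  omega

theorem quat_aN_sq {N : ℕ} :
    (a (N : ZMod (2 * N)) : QuaternionGroup N) * a (N : ZMod (2 * N)) = 1 := by
  rw [a_mul_a, one_def, a.injEq]
  have : ((N : ZMod (2 * N)) + N) = ((2 * N : ℕ) : ZMod (2 * N)) := by
    push_cast; ring
  rw [this, ZMod.natCast_self]

/-- The only involution of a generalized quaternion group is `a N`. -/
theorem quat_sq_eq_one {N : ℕ} (hN : N ≠ 0) (g : QuaternionGroup N) (hg : g * g = 1) :
    g = 1 ∨ g = a (N : ZMod (2 * N)) := by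
  have hn2 : NeZero (2 * N) := ⟨by omega⟩
  cases g with
  | a i =>
    rw [a_mul_a, one_def, a.injEq] at hg
    have hi : ((i.val + i.val : ℕ) : ZMod (2 * N)) = 0 := by
      rw [Nat.cast_add, ZMod.natCast_zmod_val]; exact hg
    rw [ZMod.natCast_eq_zero_iff] at hi
    have hlt : i.val < 2 * N := ZMod.val_lt i
    obtain ⟨k, hk⟩ := hi
    have hk2 : k < 2 := by
      by_contra hcon
      have h2 : 2 ≤ k := by omega
      have h3 : 2 * N * 2 ≤ 2 * N * k := Nat.mul_le_mul_left _ h2
      omega
    have hival : i = ((i.val : ℕ) : ZMod (2 * N)) := (ZMod.natCast_zmod_val i).symm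
    interval_cases k
    · left
      have h0 : i.val = 0 := by omega
      rw [hival, h0, Nat.cast_zero, one_def]
    · right
      have h0 : i.val = N := by omega
      rw [hival, h0]
  | xa i =>
    exfalso
    rw [xa_mul_xa, one_def, a.injEq] at hg
    have h1 : (N : ZMod (2 * N)) = 0 := by
      have : (N : ZMod (2 * N)) + i - i = N := by ring
      rw [← this]; exact hg
    rw [ZMod.natCast_eq_zero_iff] at h1
    have := Nat.le_of_dvd (Nat.pos_of_ne_zero hN) h1
    omega

/-- The centre of a generalized quaternion group of order at least 8 is `{1, a N}`. -/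
theorem quat_center {N : ℕ} (hN : 2 ≤ N) (q : QuaternionGroup N)
    (hq : ∀ r : QuaternionGroup N, r * q = q * r) : q = 1 ∨ q = a (N : ZMod (2 * N)) := by
  cases q with
  | a i =>
    apply quat_sq_eq_one (by omega)
    have h := hq (xa 0)
    rw [xa_mul_a, a_mul_xa, xa.injEq] at h
    rw [a_mul_a, one_def, a.injEq]
    linear_combination h
  | xa i =>
    exfalso
    have h := hq (a 1)
    rw [a_mul_xa, xa_mul_a, xa.injEq] at h
    have h2 : ((2 : ℕ) : ZMod (2 * N)) = 0 := by
      push_cast
      linear_combination -h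
    rw [ZMod.natCast_eq_zero_iff] at h2
    have := Nat.le_of_dvd (by norm_num) h2
    omega

/-! ### The quaternion group of order 8 -/

theorem q8_sq : ∀ x : QuaternionGroup 2, x ≠ 1 → x ≠ a 2 → x * x = a 2 := by decide

theorem q8_inv_conj : ∀ x : QuaternionGroup 2, ∃ y : QuaternionGroup 2, y * x * y⁻¹ = x⁻¹ := by
  decide

theorem q8_a2_ne_one : (a 2 : QuaternionGroup 2) ≠ 1 := by decide

theorem q8_a2_sq : (a 2 : QuaternionGroup 2) * a 2 = 1 := by decide

theorem q8_invol : ∀ x : QuaternionGroup 2, x * x = 1 → x ≠ 1 → x = a 2 := by decide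

/-- A subgroup isomorphic to the quaternion group of order 8, with its involution `u`, gives
`Q8Data`. -/
theorem q8Data_of_equiv {G : Type*} [Group G] (P : Subgroup G) (e : P ≃* QuaternionGroup 2)
    (u : G) (hu : u ∈ P) (hu1 : u ≠ 1) (hu2 : u * u = 1) : Q8Data P u := by
  have heu : e ⟨u, hu⟩ = a 2 := by
    apply q8_invol
    · rw [← map_mul]
      have : (⟨u, hu⟩ : P) * ⟨u, hu⟩ = 1 := Subtype.ext hu2
      rw [this, map_one]
    · intro h
      have : (⟨u, hu⟩ : P) = 1 := e.injective (by rw [h, map_one])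
      exact hu1 (congrArg Subtype.val this)
  refine ⟨?_, hu, hu1, hu2, ?_, ?_⟩
  · rw [Nat.card_congr e.toEquiv, Nat.card_eq_fintype_card, QuaternionGroup.card]
  · intro x hx hx1 hxu
    have h1 : e ⟨x, hx⟩ ≠ 1 := by
      intro h
      have : (⟨x, hx⟩ : P) = 1 := e.injective (by rw [h, map_one])
      exact hx1 (congrArg Subtype.val this)
    have h2 : e ⟨x, hx⟩ ≠ a 2 := by
      intro h
      have : (⟨x, hx⟩ : P) = ⟨u, hu⟩ := e.injective (by rw [h, heu])
      exact hxu (congrArg Subtype.val this)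
    have h3 := q8_sq _ h1 h2
    rw [← heu, ← map_mul] at h3
    exact congrArg Subtype.val (e.injective h3)
  · intro x hx _ _
    obtain ⟨y, hy⟩ := q8_inv_conj (e ⟨x, hx⟩)
    refine ⟨(e.symm y : P), (e.symm y).2, ?_⟩
    have h3 : e (e.symm y * ⟨x, hx⟩ * (e.symm y)⁻¹) = e (⟨x, hx⟩⁻¹) := by
      rw [map_mul, map_mul, map_inv, map_inv, MulEquiv.apply_symm_apply]
      exact hy
    exact congrArg Subtype.val (e.injective h3)

end Cfsg.Agent.Helper49
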