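/-
Helper49 library: subgroups of a finite group of characteristic `p` containing a `p`-subgroup `Q` with
`C_G(Q) ≤ Q` have characteristic `p`. Everything lives in `namespace Cfsg.Agent.Helper49`.
-/
import Cfsg.Agent.Helper49.AxB

set_option autoImplicit false

namespace Cfsg.Agent.Helper49

open Cfsg

variable {G : Type*} [Group G] {p : ℕ}

/-- The elements of `N_G(D)` acting trivially on `P` modulo `D`: `g u g⁻¹ u⁻¹ ∈ D` for all `u ∈ P`. -/
def stabMod (P D : Subgroup G) : Subgroup G where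
  carrier := {g | g ∈ Subgroup.normalizer (D : Set G) ∧ ∀ u ∈ P, g * u * g⁻¹ * u⁻¹ ∈ D}
  one_mem' := ⟨Subgroup.one_mem _, fun u _ => by simp⟩
  mul_mem' := by
    rintro a b ⟨ha, ha'⟩ ⟨hb, hb'⟩
    refine ⟨Subgroup.mul_mem _ ha hb, fun u hu => ?_⟩
    have h1 : a * b * u * (a * b)⁻¹ * u⁻¹ = (a * (b * u * b⁻¹ * u⁻¹) * a⁻¹) * (a * u * a⁻¹ * u⁻¹) := by
      group
    rw [h1]
    exact D.mul_mem ((Subgroup.mem_normalizer_iff.mp ha _).mp (hb' u hu)) (ha' u hu)
  inv_mem' := by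
    rintro a ⟨ha, ha'⟩
    refine ⟨Subgroup.inv_mem _ ha, fun u hu => ?_⟩
    have h1 : a⁻¹ * u * a⁻¹⁻¹ * u⁻¹ = a⁻¹ * (a * u * a⁻¹ * u⁻¹)⁻¹ * a⁻¹⁻¹ := by group
    rw [h1]
    exact (Subgroup.mem_normalizer_iff.mp (Subgroup.inv_mem _ ha) _).mp (D.inv_mem (ha' u hu))

theorem mem_stabMod {P D : Subgroup G} {g : G} :
    g ∈ stabMod P D ↔ g ∈ Subgroup.normalizer (D : Set G) ∧ ∀ u ∈ P, g * u * g⁻¹ * u⁻¹ ∈ D :=
  Iff.rfl

/-- `stabMod P D` is normalized by every element normalizing both `P` and `D`. -/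
theorem conj_mem_stabMod {P D : Subgroup G} {g c : G} (hg : g ∈ stabMod P D)
    (hcD : c ∈ Subgroup.normalizer (D : Set G)) (hcP : c ∈ Subgroup.normalizer (P : Set G)) :
    c * g * c⁻¹ ∈ stabMod P D := by
  obtain ⟨hgD, hg'⟩ := hg
  refine ⟨Subgroup.mul_mem _ (Subgroup.mul_mem _ hcD hgD) (Subgroup.inv_mem _ hcD), fun u hu => ?_⟩
  have hu' : c⁻¹ * u * c ∈ P := by
    have := (Subgroup.mem_normalizer_iff.mp (Subgroup.inv_mem _ hcP) u).mp hu
    simpa using this
  have h1 : c * g * c⁻¹ * u * (c * g * c⁻¹)⁻¹ * u⁻¹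
      = c * (g * (c⁻¹ * u * c) * g⁻¹ * (c⁻¹ * u * c)⁻¹) * c⁻¹ := by group
  rw [h1]
  exact (Subgroup.mem_normalizer_iff.mp hcD _).mp (hg' _ hu')

/-- Let `G` be a finite group of characteristic `p`, and `Q` a `p`-subgroup normalized by `O_p(G)` with
`C_G(Q) ≤ Q`. Then every subgroup `L` containing `Q` has characteristic `p`. -/
theorem charp_of_le_of_centralizer_le [Finite G] [Fact p.Prime]
    (hG : Subgroup.centralizer (pCore p G : Set G) ≤ pCore p G) (Q : Subgroup G) (hQ : IsPGroup p Q)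
    (hPQ : pCore p G ≤ Subgroup.normalizer (Q : Set G))
    (hCQ : Subgroup.centralizer (Q : Set G) ≤ Q) (L : Subgroup G) (hQL : Q ≤ L) :
    Subgroup.centralizer (pCore p ↥L : Set ↥L) ≤ pCore p ↥L := by
  have hPn : (pCore p G).Normal := pCore_normal' p G
  set R : Subgroup G := (pCore p ↥L).map L.subtype with hR
  set C : Subgroup G := L ⊓ Subgroup.centralizer (R : Set G) with hCdef
  have hCL : C ≤ L := inf_le_left
  have hLC : L ≤ Subgroup.normalizer (C : Set G) := by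
    refine le_trans ?_ Subgroup.inf_normalizer_le_normalizer_inf
    exact le_inf Subgroup.le_normalizer
      ((le_normalizer_map_pCore p L).trans (normalizer_le_normalizer_centralizer R))
  -- `D = P ⊓ L` lies in `O_p(L)`
  set D : Subgroup G := pCore p G ⊓ L with hDdef
  have hLD : L ≤ Subgroup.normalizer (D : Set G) := by
    rw [Subgroup.le_normalizer_iff]
    intro l hl k hk
    exact ⟨hPn.conj_mem k hk.1 l, L.mul_mem (L.mul_mem hl hk.2) (L.inv_mem hl)⟩
  have hDR : D ≤ R := le_map_pCore inf_le_right hLD (pCore_isPGroup p G).to_inf_left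
  have hNP : ∀ c : G, c ∈ Subgroup.normalizer ((pCore p G : Subgroup G) : Set G) := fun c => by
    rw [Subgroup.normalizer_eq_top]; trivial
  -- `Q ≤ stabMod P D`
  have hQM : Q ≤ stabMod (pCore p G) D := by
    intro q hq
    refine ⟨hLD (hQL hq), fun u hu => ⟨?_, ?_⟩⟩
    · exact (pCore p G).mul_mem (hPn.conj_mem u hu q) ((pCore p G).inv_mem hu)
    · have h1 : u * q⁻¹ * u⁻¹ ∈ Q := (Subgroup.mem_normalizer_iff.mp (hPQ hu) q⁻¹).mp (Q.inv_mem hq)
      have h2 : q * u * q⁻¹ * u⁻¹ = q * (u * q⁻¹ * u⁻¹) := by group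
      rw [h2]
      exact L.mul_mem (hQL hq) (hQL h1)
  -- `[C, Q] ≤ stabMod P D ⊓ C`
  have hcomm : ⁅C, Q⁆ ≤ stabMod (pCore p G) D ⊓ C := by
    rw [Subgroup.commutator_le]
    intro c hc q hq
    rw [commutatorElement_def]
    refine ⟨?_, ?_⟩
    · exact (stabMod (pCore p G) D).mul_mem (conj_mem_stabMod (hQM hq) (hLD (hCL hc)) (hNP c))
        ((stabMod (pCore p G) D).inv_mem (hQM hq))
    · have h1 : q * c⁻¹ * q⁻¹ ∈ C :=
        (Subgroup.mem_normalizer_iff.mp (hLC (hQL hq)) c⁻¹).mp (C.inv_mem hc)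
      have h2 : c * q * c⁻¹ * q⁻¹ = c * (q * c⁻¹ * q⁻¹) := by group
      rw [h2]
      exact C.mul_mem hc h1
  -- `stabMod P D ⊓ C` is a `p`-group
  have hMC : IsPGroup p (stabMod (pCore p G) D ⊓ C : Subgroup G) := by
    apply isPGroup_of_coprime_order_trivial _ (fun g _ => isOfFinOrder_of_finite g)
    rintro y ⟨hyM, hyC⟩ hcop
    have hyP : y ∈ Subgroup.centralizer (pCore p G : Set G) := by
      rw [Subgroup.mem_centralizer_iff]
      intro u hu
      have hd : y * u * y⁻¹ * u⁻¹ ∈ D := hyM.2 u hu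
      have hc : Commute y (y * u * y⁻¹ * u⁻¹) :=
        (Subgroup.mem_centralizer_iff.mp hyC.2 _ (hDR hd)).symm
      have h1 : y * u * y⁻¹ = (y * u * y⁻¹ * u⁻¹) * u := by group
      have hd1 : y * u * y⁻¹ * u⁻¹ = 1 :=
        eq_one_of_conj_eq_mul_left h1 hc (pow_eq_one_of_mem_pCore hd.1) hcop
      have h3 : y * u * y⁻¹ = u := by rw [h1, hd1, one_mul]
      calc u * y = (y * u * y⁻¹) * y := by rw [h3]
        _ = y * u := by group
    exact eq_one_of_pPow_of_coprime (pow_eq_one_of_mem_pCore (hG hyP)) hcop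
  -- hence `[C, Q]` is a `p`-group, normal in `C`, so it lies in `O_p(C) ≤ O_p(L)`
  have hcommp : IsPGroup p (⁅C, Q⁆ : Subgroup G) := hMC.to_le hcomm
  have hcommR : ⁅C, Q⁆ ≤ R :=
    (le_map_pCore (hcomm.trans inf_le_right) (Subgroup.normalizer_commutator_ge_left C Q) hcommp).trans
      (map_pCore_mono_of_normal p hCL hLC)
  -- conclusion
  apply centralizer_pCore_le_of_coprime_trivial L (fun g _ => isOfFinOrder_of_finite g)
  intro y hyL hyR hcop
  have hyC : y ∈ C := ⟨hyL, hyR⟩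
  have hyQ : y ∈ Subgroup.centralizer (Q : Set G) := by
    rw [Subgroup.mem_centralizer_iff]
    intro q hq
    have he : y * q * y⁻¹ * q⁻¹ ∈ ⁅C, Q⁆ := Subgroup.commutator_mem_commutator hyC hq
    have hc : Commute y (y * q * y⁻¹ * q⁻¹) :=
      (Subgroup.mem_centralizer_iff.mp hyR _ (hcommR he)).symm
    have h1 : y * q * y⁻¹ = (y * q * y⁻¹ * q⁻¹) * q := by group
    have he1 : y * q * y⁻¹ * q⁻¹ = 1 :=
      eq_one_of_conj_eq_mul_left h1 hc (pow_eq_one_of_mem_isPGroup hcommp he) hcop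
    have h3 : y * q * y⁻¹ = q := by rw [h1, he1, one_mul]
    calc q * y = (y * q * y⁻¹) * y := by rw [h3]
      _ = y * q := by group
  exact eq_one_of_pPow_of_coprime (pow_eq_one_of_mem_isPGroup hQ (hCQ hyQ)) hcop

end Cfsg.Agent.Helper49
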