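/-
Helper49 library: control of Sylow intersections via a step relation on subgroups
(`Relation.ReflTransGen (Step p 𝓕 D)`), and its transport between a subgroup `M` (as a group) and the
ambient group.
Everything lives in `namespace Cfsg.Agent.Helper49`.
-/
import Mathlib.Logic.Relation
import Cfsg.Agent.Helper49.SylowControl

set_option autoImplicit false

namespace Cfsg.Agent.Helper49

open Cfsg

variable {G : Type*} [Group G]

/-! ### `IsSylowIn` -/

theorem isSylowIn_of_sylow_le [Finite G] {p : ℕ} [Fact p.Prime] (S : Sylow p G) {M : Subgroup G}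
    (h : (S : Subgroup G) ≤ M) : IsSylowIn p (S : Subgroup G) M :=
  ⟨h, S.isPGroup', fun hd => S.not_dvd_index (hd.trans (Subgroup.relIndex_dvd_index_of_le h))⟩

theorem isSylowIn_top_iff [Finite G] {p : ℕ} [Fact p.Prime] {Q : Subgroup G} :
    IsSylowIn p Q ⊤ ↔ ∃ S : Sylow p G, (S : Subgroup G) = Q := by
  constructor
  · rintro ⟨-, hp, hnd⟩
    rw [Subgroup.relIndex_top_right] at hnd
    exact ⟨hp.toSylow hnd, rfl⟩
  · rintro ⟨S, rfl⟩
    exact isSylowIn_of_sylow_le S le_top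

theorem IsSylowIn.card_eq [Finite G] {p : ℕ} [Fact p.Prime] {Q Q' X : Subgroup G}
    (h : IsSylowIn p Q X) (h' : IsSylowIn p Q' X) : Nat.card Q = Nat.card Q' := by
  obtain ⟨P, rfl⟩ := (exists_sylow_map_eq_iff p Q X).mpr h
  obtain ⟨P', rfl⟩ := (exists_sylow_map_eq_iff p Q' X).mpr h'
  rw [Subgroup.card_map_of_injective X.subtype_injective,
    Subgroup.card_map_of_injective X.subtype_injective]
  rw [Sylow.card_eq_multiplicity P, Sylow.card_eq_multiplicity P']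

/-- A Sylow subgroup of `M` contained in `X ≤ M` is a Sylow subgroup of `X`. -/
theorem IsSylowIn.of_le {p : ℕ} {P X M : Subgroup G} (h : IsSylowIn p P M) (hPX : P ≤ X)
    (hXM : X ≤ M) : IsSylowIn p P X := by
  refine ⟨hPX, h.2.1, fun hd => h.2.2 ?_⟩
  rw [← Subgroup.relIndex_mul_relIndex P X M hPX hXM]
  exact hd.mul_right _

/-- If `P ≤ X ≤ M` with `P` Sylow in `M`, `U` is Sylow in `M` and `U ⊓ X` is Sylow in `X`, then `U ≤ X`. -/
theorem le_of_isSylowIn_inf [Finite G] {p : ℕ} [Fact p.Prime] {P U X M : Subgroup G}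
    (hP : IsSylowIn p P M) (hPX : P ≤ X) (hXM : X ≤ M) (hU : IsSylowIn p U M)
    (hUX : IsSylowIn p (U ⊓ X) X) : U ≤ X := by
  have h1 : Nat.card (U ⊓ X : Subgroup G) = Nat.card P := hUX.card_eq (hP.of_le hPX hXM)
  have h2 : Nat.card U = Nat.card P := hU.card_eq hP
  have h3 : U ⊓ X = U := Subgroup.eq_of_le_of_card_ge inf_le_left (by rw [h1, h2])
  rw [← h3]; exact inf_le_right

theorem isSylowIn_scr_self {p : ℕ} {Q M : Subgroup G} {g : G} (hg : g ∈ M) (h : IsSylowIn p Q M) :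
    IsSylowIn p (subgroupConjRight g Q) M := by
  have := isSylowIn_scr g h
  rwa [scr_eq_self_of_mem hg] at this

/-- Sylow subgroups of `M` are conjugate in `M`. -/
theorem IsSylowIn.exists_conj [Finite G] {p : ℕ} [Fact p.Prime] {U V M : Subgroup G}
    (hU : IsSylowIn p U M) (hV : IsSylowIn p V M) : ∃ m ∈ M, subgroupConjRight m U = V := by
  obtain ⟨P, rfl⟩ := (exists_sylow_map_eq_iff p U M).mpr hU
  obtain ⟨P', rfl⟩ := (exists_sylow_map_eq_iff p V M).mpr hV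
  obtain ⟨m, hm⟩ := MulAction.exists_smul_eq ↥M P' P
  refine ⟨(m : G), m.2, ?_⟩
  ext y
  rw [mem_scr, ← hm]
  constructor
  · rintro ⟨z, hz, hzy⟩
    have hyM : y ∈ M := by
      have h1 : (m : G) * y * (m : G)⁻¹ ∈ M := by rw [← hzy]; exact z.2
      have e : y = (m : G)⁻¹ * ((m : G) * y * (m : G)⁻¹) * (m : G) := by group
      rw [e]; exact M.mul_mem (M.mul_mem (M.inv_mem m.2) h1) m.2
    refine ⟨⟨y, hyM⟩, ?_, rfl⟩
    have h2 : z = m * ⟨y, hyM⟩ * m⁻¹ := Subtype.ext (by simpa using hzy)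
    have h3 : (⟨y, hyM⟩ : ↥M) = m⁻¹ * z * m := by rw [h2]; group
    rw [h3]
    have h4 : m⁻¹ * z * m ∈ ((m⁻¹ • (m • P') : Sylow p ↥M) : Subgroup ↥M) := by
      rw [coe_smul_sylow, mem_scr]
      have e : m⁻¹⁻¹ * (m⁻¹ * z * m) * m⁻¹⁻¹⁻¹ = z := by group
      rw [e]; exact hz
    rwa [inv_smul_smul] at h4
  · rintro ⟨z, hz, rfl⟩
    refine ⟨m * z * m⁻¹, ?_, by simp⟩
    show m * z * m⁻¹ ∈ ((m • P' : Sylow p ↥M) : Subgroup ↥M)
    rw [coe_smul_sylow, mem_scr]
    have e : m⁻¹ * (m * z * m⁻¹) * m⁻¹⁻¹ = z := by group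
    rw [e]; exact hz

/-! ### The step relation -/

/-- One step of a chain of Sylow subgroups linked by members of `𝓕`: `V^x = U` with `x ∈ X ∈ 𝓕`,
`X` meeting `U` and `V` in Sylow subgroups of `X`, and `D ≤ V ∩ X`. -/
def Step (p : ℕ) (𝓕 : Set (Subgroup G)) (D U V : Subgroup G) : Prop :=
  ∃ X ∈ 𝓕, ∃ x ∈ X, IsSylowIn p (U ⊓ X) X ∧ IsSylowIn p (V ⊓ X) X ∧ subgroupConjRight x V = U ∧
    D ≤ V ⊓ X

theorem Step.mono {p : ℕ} {𝓕 𝓕' : Set (Subgroup G)} {D D' U V : Subgroup G} (h𝓕 : 𝓕 ⊆ 𝓕')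
    (hD : D' ≤ D) (h : Step p 𝓕 D U V) : Step p 𝓕' D' U V := by
  obtain ⟨X, hX, x, hx, hU, hV, hconj, hDV⟩ := h
  exact ⟨X, h𝓕 hX, x, hx, hU, hV, hconj, hD.trans hDV⟩

theorem reflTransGen_step_mono {p : ℕ} {𝓕 𝓕' : Set (Subgroup G)} {D D' U V : Subgroup G}
    (h𝓕 : 𝓕 ⊆ 𝓕') (hD : D' ≤ D) (h : Relation.ReflTransGen (Step p 𝓕 D) U V) :
    Relation.ReflTransGen (Step p 𝓕' D') U V :=
  Relation.ReflTransGen.mono (fun _ _ hs => hs.mono h𝓕 hD) _ _ h

theorem Step.eq_scr {p : ℕ} {𝓕 : Set (Subgroup G)} {D U V : Subgroup G} (h : Step p 𝓕 D U V) :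
    ∃ X ∈ 𝓕, ∃ x ∈ X, V = subgroupConjRight x⁻¹ U := by
  obtain ⟨X, hX, x, hx, -, -, hconj, -⟩ := h
  exact ⟨X, hX, x, hx, by rw [← hconj, scr_inv_scr]⟩

/-- Conjugating a step. -/
theorem Step.scr {p : ℕ} {𝓕 : Set (Subgroup G)} (h𝓕 : IsNormalSet 𝓕) (g : G) {D U V : Subgroup G}
    (h : Step p 𝓕 D U V) :
    Step p 𝓕 (subgroupConjRight g D) (subgroupConjRight g U) (subgroupConjRight g V) := by
  obtain ⟨X, hX, x, hx, hU, hV, hconj, hDV⟩ := h
  refine ⟨subgroupConjRight g X, h𝓕 X hX g, g⁻¹ * x * g, ?_, ?_, ?_, ?_, ?_⟩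
  · rw [mem_scr]
    have e : g * (g⁻¹ * x * g) * g⁻¹ = x := by group
    rw [e]; exact hx
  · rw [← scr_inf]; exact isSylowIn_scr g hU
  · rw [← scr_inf]; exact isSylowIn_scr g hV
  · rw [← scr_mul]
    have e : g * (g⁻¹ * x * g) = x * g := by group
    rw [e, scr_mul, hconj]
  · rw [← scr_inf]; exact scr_mono g hDV

theorem reflTransGen_step_scr {p : ℕ} {𝓕 : Set (Subgroup G)} (h𝓕 : IsNormalSet 𝓕) (g : G)
    {D U V : Subgroup G} (h : Relation.ReflTransGen (Step p 𝓕 D) U V) :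
    Relation.ReflTransGen (Step p 𝓕 (subgroupConjRight g D)) (subgroupConjRight g U)
      (subgroupConjRight g V) :=
  Relation.ReflTransGen.lift (subgroupConjRight g) (fun _ _ hs => hs.scr h𝓕 g) _ _ h

/-! ### Chains and the step relation -/

theorem reflTransGen_of_controls [Finite G] {p : ℕ} [Fact p.Prime] {𝓕 : Set (Subgroup G)}
    (h : ControlsSylowIntersections p 𝓕) (S T : Sylow p G) (hne : S ≠ T)
    (hint : (S : Subgroup G) ⊓ (T : Subgroup G) ≠ ⊥) :
    Relation.ReflTransGen (Step p 𝓕 ((S : Subgroup G) ⊓ (T : Subgroup G))) (S : Subgroup G)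
      (T : Subgroup G) := by
  obtain ⟨n, c, X, x, hc0, hcn, hstep⟩ := h S T hne hint
  have key := fin_chain_induction c
    (fun T' : Sylow p G => Relation.ReflTransGen (Step p 𝓕 ((S : Subgroup G) ⊓ (T : Subgroup G)))
      (S : Subgroup G) (T' : Subgroup G))
    (by rw [hc0])
    (fun i hi => hi.tail ⟨X i, ((mem_sylowMembers_iff p 𝓕 _ _).mp (hstep i).1).1, x i,
      (hstep i).2.2.1, ((mem_sylowMembers_iff p 𝓕 _ _).mp (hstep i).1).2,
      ((mem_sylowMembers_iff p 𝓕 _ _).mp (hstep i).2.1).2, (hstep i).2.2.2.1, (hstep i).2.2.2.2⟩)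
    (Fin.last n)
  rwa [hcn] at key

theorem controls_of_reflTransGen [Finite G] {p : ℕ} [Fact p.Prime] {𝓕 : Set (Subgroup G)}
    (h : ∀ S T : Sylow p G, S ≠ T → (S : Subgroup G) ⊓ (T : Subgroup G) ≠ ⊥ →
      Relation.ReflTransGen (Step p 𝓕 ((S : Subgroup G) ⊓ (T : Subgroup G))) (S : Subgroup G)
        (T : Subgroup G)) :
    ControlsSylowIntersections p 𝓕 := by
  intro S T hne hint
  have key : ∀ V : Subgroup G,
      Relation.ReflTransGen (Step p 𝓕 ((S : Subgroup G) ⊓ (T : Subgroup G))) (S : Subgroup G) V →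
      ∃ (n : ℕ) (c : Fin (n + 1) → Sylow p G) (X : Fin n → Subgroup G) (x : Fin n → G),
        c 0 = S ∧ ((c (Fin.last n) : Sylow p G) : Subgroup G) = V ∧
        ∀ i : Fin n,
          X i ∈ sylowMembers p 𝓕 (c i.castSucc : Subgroup G) ∧
          X i ∈ sylowMembers p 𝓕 (c i.succ : Subgroup G) ∧
          x i ∈ X i ∧ subgroupConjRight (x i) (c i.succ : Subgroup G) = (c i.castSucc : Subgroup G) ∧
          (S : Subgroup G) ⊓ (T : Subgroup G) ≤ (c i.succ : Subgroup G) ⊓ X i := by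
    intro V hV
    induction hV with
    | refl => exact ⟨0, fun _ => S, Fin.elim0, Fin.elim0, rfl, rfl, fun i => i.elim0⟩
    | @tail U V _ hstep ih =>
      obtain ⟨n, c, X, x, hc0, hcn, hc⟩ := ih
      obtain ⟨Y, hY, y, hyY, hU, hV, hconj, hD⟩ := hstep
      have hVeq : ((y • c (Fin.last n) : Sylow p G) : Subgroup G) = V := by
        rw [coe_smul_sylow, hcn, ← hconj, scr_inv_scr]
      refine ⟨n + 1, Fin.snoc (α := fun _ => Sylow p G) c (y • c (Fin.last n)),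
        Fin.snoc (α := fun _ => Subgroup G) X Y, Fin.snoc (α := fun _ => G) x y, ?_, ?_, ?_⟩
      · have e : (0 : Fin (n + 1 + 1)) = Fin.castSucc (0 : Fin (n + 1)) := rfl
        rw [e, Fin.snoc_castSucc]; exact hc0
      · rw [Fin.snoc_last]; exact hVeq
      · intro i
        induction i using Fin.lastCases with
        | last =>
          have e1 : (Fin.last n).succ = Fin.last (n + 1) := Fin.succ_last n
          rw [e1]
          simp only [Fin.snoc_last, Fin.snoc_castSucc]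
          rw [hVeq, hcn]
          exact ⟨(mem_sylowMembers_iff p 𝓕 _ _).mpr ⟨hY, hU⟩,
            (mem_sylowMembers_iff p 𝓕 _ _).mpr ⟨hY, hV⟩, hyY, hconj, hD⟩
        | cast i =>
          have e1 : i.castSucc.succ = i.succ.castSucc := Fin.succ_castSucc i
          rw [e1]
          simp only [Fin.snoc_castSucc]
          exact hc i
  obtain ⟨n, c, X, x, hc0, hcn, hc⟩ := key T (h S T hne hint)
  exact ⟨n, c, X, x, hc0, Sylow.ext hcn, hc⟩

end Cfsg.Agent.Helper49
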