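/-
Helper49 library: transport of the step relation between a subgroup `M` (as a group) and the ambient
group, and the family `Cfsg.functorFamily p f M` of a normalizer functor.
Everything lives in `namespace Cfsg.Agent.Helper49`.
-/
import Cfsg.Agent.Helper49.SylowStep
import Cfsg.Prelude.Def_SylowChains

set_option autoImplicit false

namespace Cfsg.Agent.Helper49

open Cfsg

variable {G : Type*} [Group G]

theorem scr_bot (g : G) : subgroupConjRight g (⊥ : Subgroup G) = ⊥ := by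
  unfold subgroupConjRight
  exact Subgroup.map_bot _

theorem isSylowIn_map {H : Type*} [Group H] (φ : H →* G) (hφ : Function.Injective φ) {p : ℕ}
    {Q X : Subgroup H} (h : IsSylowIn p Q X) : IsSylowIn p (Q.map φ) (X.map φ) := by
  obtain ⟨hle, hp, hnd⟩ := h
  refine ⟨Subgroup.map_mono hle, hp.map _, ?_⟩
  rw [Subgroup.relIndex_map_map_of_injective _ _ hφ]
  exact hnd

theorem scr_map {H : Type*} [Group H] (φ : H →* G) (x : H) (V : Subgroup H) :
    subgroupConjRight (φ x) (V.map φ) = (subgroupConjRight x V).map φ := by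
  unfold subgroupConjRight
  rw [Subgroup.map_map, Subgroup.map_map]
  congr 1
  ext v
  simp [MulAut.conj_apply]

theorem Step.map {H : Type*} [Group H] (φ : H →* G) (hφ : Function.Injective φ) {p : ℕ}
    {𝓕' : Set (Subgroup H)} {𝓕 : Set (Subgroup G)} (h𝓕 : ∀ X' ∈ 𝓕', X'.map φ ∈ 𝓕)
    {D' U' V' : Subgroup H} (h : Step p 𝓕' D' U' V') :
    Step p 𝓕 (D'.map φ) (U'.map φ) (V'.map φ) := by
  obtain ⟨X, hX, x, hx, hU, hV, hconj, hDV⟩ := h
  refine ⟨X.map φ, h𝓕 X hX, φ x, Subgroup.mem_map_of_mem φ hx, ?_, ?_, ?_, ?_⟩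
  · rw [← Subgroup.map_inf _ _ φ hφ]; exact isSylowIn_map φ hφ hU
  · rw [← Subgroup.map_inf _ _ φ hφ]; exact isSylowIn_map φ hφ hV
  · rw [scr_map, hconj]
  · rw [← Subgroup.map_inf _ _ φ hφ]; exact Subgroup.map_mono hDV

theorem isSylowIn_subgroupOf {p : ℕ} {Q X M : Subgroup G} (hXM : X ≤ M) (h : IsSylowIn p Q X) :
    IsSylowIn p (Q.subgroupOf M) (X.subgroupOf M) := by
  obtain ⟨hle, hp, hnd⟩ := h
  refine ⟨Subgroup.comap_mono hle, hp.comap_of_injective M.subtype M.subtype_injective, ?_⟩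
  rw [Subgroup.relIndex_subgroupOf hXM]
  exact hnd

theorem Step.subgroupOf {p : ℕ} {M : Subgroup G} {𝓕 : Set (Subgroup G)} (h𝓕M : ∀ X ∈ 𝓕, X ≤ M)
    {D U V : Subgroup G} (h : Step p 𝓕 D U V) :
    Step p ((fun X : Subgroup G => X.subgroupOf M) '' 𝓕) (D.subgroupOf M) (U.subgroupOf M)
      (V.subgroupOf M) := by
  obtain ⟨X, hX, x, hx, hU, hV, hconj, hDV⟩ := h
  have hXM := h𝓕M X hX
  refine ⟨X.subgroupOf M, ⟨X, hX, rfl⟩, ⟨x, hXM hx⟩, Subgroup.mem_subgroupOf.mpr hx, ?_, ?_, ?_, ?_⟩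
  · have e : U.subgroupOf M ⊓ X.subgroupOf M = (U ⊓ X).subgroupOf M := rfl
    rw [e]; exact isSylowIn_subgroupOf hXM hU
  · have e : V.subgroupOf M ⊓ X.subgroupOf M = (V ⊓ X).subgroupOf M := rfl
    rw [e]; exact isSylowIn_subgroupOf hXM hV
  · ext y
    rw [mem_scr, Subgroup.mem_subgroupOf, Subgroup.mem_subgroupOf, ← hconj, mem_scr]
    rfl
  · intro y hy
    exact ⟨(hDV hy).1, (hDV hy).2⟩

/-- From control of Sylow intersections in the group `↥M` to chains in the ambient group. -/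
theorem ambient_of_controls [Finite G] {p : ℕ} [Fact p.Prime] {M : Subgroup G}
    {𝓕 : Set (Subgroup G)} (h𝓕M : ∀ X ∈ 𝓕, X ≤ M)
    (h : ControlsSylowIntersections p ((fun X : Subgroup G => X.subgroupOf M) '' 𝓕))
    {S T : Subgroup G} (hS : IsSylowIn p S M) (hT : IsSylowIn p T M) (hne : S ≠ T)
    (hint : S ⊓ T ≠ ⊥) : Relation.ReflTransGen (Step p 𝓕 (S ⊓ T)) S T := by
  obtain ⟨S', rfl⟩ := (exists_sylow_map_eq_iff p S M).mpr hS
  obtain ⟨T', rfl⟩ := (exists_sylow_map_eq_iff p T M).mpr hT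
  have hne' : S' ≠ T' := fun h0 => hne (by rw [h0])
  have hint' : (S' : Subgroup ↥M) ⊓ (T' : Subgroup ↥M) ≠ ⊥ := by
    intro h0
    apply hint
    rw [← Subgroup.map_inf _ _ M.subtype M.subtype_injective, h0, Subgroup.map_bot]
  have c := reflTransGen_of_controls h S' T' hne' hint'
  have hstep : ∀ a b : Subgroup ↥M,
      Step p ((fun X : Subgroup G => X.subgroupOf M) '' 𝓕)
        ((S' : Subgroup ↥M) ⊓ (T' : Subgroup ↥M)) a b →
      Step p 𝓕 (((S' : Subgroup ↥M) ⊓ (T' : Subgroup ↥M)).map M.subtype) (a.map M.subtype)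
        (b.map M.subtype) := by
    intro a b hab
    apply Step.map M.subtype M.subtype_injective _ hab
    rintro _ ⟨X, hX, rfl⟩
    rw [Subgroup.subgroupOf_map_subtype, inf_eq_left.mpr (h𝓕M X hX)]
    exact hX
  have c' := Relation.ReflTransGen.lift (fun U' : Subgroup ↥M => U'.map M.subtype) hstep _ _ c
  rw [Subgroup.map_inf _ _ M.subtype M.subtype_injective] at c'
  exact c'

/-- From chains in the ambient group to control of Sylow intersections in the group `↥M`. -/
theorem controls_of_ambient [Finite G] {p : ℕ} [Fact p.Prime] {M : Subgroup G}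
    {𝓕 : Set (Subgroup G)} (h𝓕M : ∀ X ∈ 𝓕, X ≤ M)
    (h : ∀ S T : Subgroup G, IsSylowIn p S M → IsSylowIn p T M → S ≠ T → S ⊓ T ≠ ⊥ →
      Relation.ReflTransGen (Step p 𝓕 (S ⊓ T)) S T) :
    ControlsSylowIntersections p ((fun X : Subgroup G => X.subgroupOf M) '' 𝓕) := by
  apply controls_of_reflTransGen
  intro S' T' hne hint
  have hS : IsSylowIn p ((S' : Subgroup ↥M).map M.subtype) M :=
    (exists_sylow_map_eq_iff p _ M).mp ⟨S', rfl⟩
  have hT : IsSylowIn p ((T' : Subgroup ↥M).map M.subtype) M :=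
    (exists_sylow_map_eq_iff p _ M).mp ⟨T', rfl⟩
  have hne' : (S' : Subgroup ↥M).map M.subtype ≠ (T' : Subgroup ↥M).map M.subtype := by
    intro h0
    exact hne (Sylow.ext (Subgroup.map_injective M.subtype_injective h0))
  have hint' : (S' : Subgroup ↥M).map M.subtype ⊓ (T' : Subgroup ↥M).map M.subtype ≠ ⊥ := by
    intro h0
    apply hint
    rw [← Subgroup.map_inf _ _ M.subtype M.subtype_injective] at h0
    exact (Subgroup.map_eq_bot_iff_of_injective _ M.subtype_injective).mp h0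
  have c := h _ _ hS hT hne' hint'
  have c' : Relation.ReflTransGen (Step p ((fun X : Subgroup G => X.subgroupOf M) '' 𝓕)
      (((S' : Subgroup ↥M).map M.subtype ⊓ (T' : Subgroup ↥M).map M.subtype).subgroupOf M))
      (((S' : Subgroup ↥M).map M.subtype).subgroupOf M)
      (((T' : Subgroup ↥M).map M.subtype).subgroupOf M) :=
    Relation.ReflTransGen.lift (fun U : Subgroup G => U.subgroupOf M)
      (fun a b hab => Step.subgroupOf h𝓕M hab) _ _ c
  have e1 : ((S' : Subgroup ↥M).map M.subtype).subgroupOf M = (S' : Subgroup ↥M) :=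
    Subgroup.comap_map_eq_self_of_injective M.subtype_injective _
  have e2 : ((T' : Subgroup ↥M).map M.subtype).subgroupOf M = (T' : Subgroup ↥M) :=
    Subgroup.comap_map_eq_self_of_injective M.subtype_injective _
  have e3 : ((S' : Subgroup ↥M).map M.subtype ⊓ (T' : Subgroup ↥M).map M.subtype).subgroupOf M =
      (S' : Subgroup ↥M) ⊓ (T' : Subgroup ↥M) := by
    rw [← Subgroup.map_inf _ _ M.subtype M.subtype_injective]
    exact Subgroup.comap_map_eq_self_of_injective M.subtype_injective _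
  rw [e1, e2, e3] at c'
  exact c'

/-! ### The family of a normalizer functor -/

theorem mem_functorFamily_iff [Finite G] {p : ℕ} [Fact p.Prime] {f : Subgroup G → Set (Subgroup G)}
    {M X : Subgroup G} :
    X ∈ functorFamily p f M ↔
      ∃ P F, IsSylowIn p P M ∧ F ∈ f P ∧ X = M ⊓ Subgroup.normalizer (F : Set G) := by
  constructor
  · rintro ⟨P, F, hF, rfl⟩
    exact ⟨_, F, (exists_sylow_map_eq_iff p _ M).mp ⟨P, rfl⟩, hF, rfl⟩
  · rintro ⟨P, F, hP, hF, rfl⟩
    obtain ⟨P', rfl⟩ := (exists_sylow_map_eq_iff p P M).mpr hP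
    exact ⟨P', F, hF, rfl⟩

theorem functorFamily_le [Finite G] {p : ℕ} [Fact p.Prime] {f : Subgroup G → Set (Subgroup G)}
    {M : Subgroup G} : ∀ X ∈ functorFamily p f M, X ≤ M := by
  rintro X ⟨P, F, hF, rfl⟩
  exact inf_le_left

/-- A Sylow subgroup of `M` is a Sylow subgroup of `G` when `M` contains a Sylow subgroup of `G`. -/
theorem IsSylowIn.top_of_sylow_le [Finite G] {p : ℕ} [Fact p.Prime] {M P : Subgroup G}
    (S : Sylow p G) (hSM : (S : Subgroup G) ≤ M) (hP : IsSylowIn p P M) : IsSylowIn p P ⊤ := by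
  refine ⟨le_top, hP.2.1, ?_⟩
  have h1 : Nat.card P = Nat.card (S : Subgroup G) := hP.card_eq (isSylowIn_of_sylow_le S hSM)
  rw [Subgroup.relIndex_top_right]
  have h2 := Subgroup.card_mul_index P
  have h3 := Subgroup.card_mul_index (S : Subgroup G)
  have h4 : P.index = (S : Subgroup G).index := by
    rw [h1] at h2
    exact Nat.eq_of_mul_eq_mul_left Nat.card_pos (h2.trans h3.symm)
  rw [h4]
  exact S.not_dvd_index

/-- A step for the family of `M` between Sylow subgroups of `M` is a step for the family of `G`, when `M`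
contains a Sylow subgroup of `G`. -/
theorem Step.functorFamily_top [Finite G] {p : ℕ} [Fact p.Prime] {f : Subgroup G → Set (Subgroup G)}
    (hf : IsNormalizerFunctor p f) {M : Subgroup G} (S : Sylow p G) (hSM : (S : Subgroup G) ≤ M)
    {D U V : Subgroup G} (hU : IsSylowIn p U M) (hV : IsSylowIn p V M)
    (h : Step p (functorFamily p f M) D U V) : Step p (functorFamily p f ⊤) D U V := by
  obtain ⟨X, hX, x, hx, hUX, hVX, hconj, hDV⟩ := h
  obtain ⟨P, F, hP, hF, rfl⟩ := mem_functorFamily_iff.mp hX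
  have hFP := (hf P hP.2.1).1 F hF
  have hPX : P ≤ M ⊓ Subgroup.normalizer (F : Set G) :=
    le_inf hP.1 (Subgroup.le_normalizer.trans hFP.2)
  have hUle : U ≤ M ⊓ Subgroup.normalizer (F : Set G) :=
    le_of_isSylowIn_inf hP hPX inf_le_left hU hUX
  have hVle : V ≤ M ⊓ Subgroup.normalizer (F : Set G) :=
    le_of_isSylowIn_inf hP hPX inf_le_left hV hVX
  have hUN : U ≤ ⊤ ⊓ Subgroup.normalizer (F : Set G) := le_inf le_top (hUle.trans inf_le_right)
  have hVN : V ≤ ⊤ ⊓ Subgroup.normalizer (F : Set G) := le_inf le_top (hVle.trans inf_le_right)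
  refine ⟨⊤ ⊓ Subgroup.normalizer (F : Set G),
    mem_functorFamily_iff.mpr ⟨P, F, hP.top_of_sylow_le S hSM, hF, rfl⟩, x,
    ⟨Subgroup.mem_top x, hx.2⟩, ?_, ?_, hconj, ?_⟩
  · rw [inf_eq_left.mpr hUN]
    exact (hU.top_of_sylow_le S hSM).of_le hUN le_top
  · rw [inf_eq_left.mpr hVN]
    exact (hV.top_of_sylow_le S hSM).of_le hVN le_top
  · exact le_inf (hDV.trans inf_le_left) ((hDV.trans inf_le_left).trans hVN)

theorem reflTransGen_functorFamily_top [Finite G] {p : ℕ} [Fact p.Prime]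
    {f : Subgroup G → Set (Subgroup G)} (hf : IsNormalizerFunctor p f) {M : Subgroup G}
    (S : Sylow p G) (hSM : (S : Subgroup G) ≤ M) {D U V : Subgroup G} (hU : IsSylowIn p U M)
    (h : Relation.ReflTransGen (Step p (functorFamily p f M) D) U V) :
    Relation.ReflTransGen (Step p (functorFamily p f ⊤) D) U V ∧ IsSylowIn p V M := by
  induction h with
  | refl => exact ⟨Relation.ReflTransGen.refl, hU⟩
  | @tail V W _ hstep ih =>
    have hW : IsSylowIn p W M := by
      obtain ⟨X, hX, x, hx, hW⟩ := hstep.eq_scr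
      rw [hW]
      exact isSylowIn_scr_self (M.inv_mem (functorFamily_le X hX hx)) ih.2
    exact ⟨ih.1.tail (hstep.functorFamily_top hf S hSM ih.2 hW), hW⟩

theorem normalizer_scr (g : G) (F : Subgroup G) :
    Subgroup.normalizer ((subgroupConjRight g F : Subgroup G) : Set G) =
      subgroupConjRight g (Subgroup.normalizer (F : Set G)) := by
  ext y
  rw [mem_scr, Subgroup.mem_normalizer_iff, Subgroup.mem_normalizer_iff]
  constructor
  · intro h k
    have h1 := h (g⁻¹ * k * g)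
    rw [mem_scr, mem_scr] at h1
    have e1 : g * (g⁻¹ * k * g) * g⁻¹ = k := by group
    have e2 : g * (y * (g⁻¹ * k * g) * y⁻¹) * g⁻¹ = g * y * g⁻¹ * k * (g * y * g⁻¹)⁻¹ := by group
    rw [e1, e2] at h1
    exact h1
  · intro h k
    rw [mem_scr, mem_scr]
    have h1 := h (g * k * g⁻¹)
    have e2 : g * (y * k * y⁻¹) * g⁻¹ = g * y * g⁻¹ * (g * k * g⁻¹) * (g * y * g⁻¹)⁻¹ := by group
    rw [e2]
    exact h1

theorem functorFamily_top_isNormalSet [Finite G] {p : ℕ} [Fact p.Prime]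
    {f : Subgroup G → Set (Subgroup G)} (hf : IsNormalizerFunctor p f) :
    IsNormalSet (functorFamily p f ⊤) := by
  intro X hX g
  obtain ⟨P, F, hP, hF, rfl⟩ := mem_functorFamily_iff.mp hX
  refine mem_functorFamily_iff.mpr ⟨subgroupConjRight g P, subgroupConjRight g F, ?_, ?_, ?_⟩
  · have h1 := isSylowIn_scr g hP
    rwa [scr_eq_self_of_mem (Subgroup.mem_top g)] at h1
  · have h1 := (hf P hP.2.1).2 g⁻¹
    show F.map (MulAut.conj g⁻¹).toMonoidHom ∈ f (P.map (MulAut.conj g⁻¹).toMonoidHom)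
    rw [h1]
    exact ⟨F, hF, rfl⟩
  · rw [scr_inf, normalizer_scr, scr_eq_self_of_mem (Subgroup.mem_top g)]

end Cfsg.Agent.Helper49
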