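import Mathlib
import Cfsg.Agent.Helper50.HigDefs

/-!
Piece GB of CALL S3050 (Higman): the commutator pairing `Q/Q' × Q/Q' → Q'/[Q',Q]` as a
biadditive map of section modules.
-/

set_option autoImplicit false

namespace Cfsg.Agent.Helper49.HigGB

open Cfsg.Agent.Helper5 Cfsg.Agent.Helper50.Hig

open scoped commutatorElement

/-- an element of `A` lying in `B` has class `0` -/
theorem secCl_eq_zero_of_mem {G : Type*} [Group G] (A B : Subgroup G) [B.Normal] (a : ↥A)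
    (h : (a : G) ∈ B) : secCl A B a = 0 := by
  unfold secCl
  have h1 : (QuotientGroup.mk a : ↥A ⧸ B.subgroupOf A) = 1 :=
    (QuotientGroup.eq_one_iff a).mpr (Subgroup.mem_subgroupOf.mpr h)
  rw [h1, map_one]
  rfl

/-- the universal property of the section module -/
theorem secMod_lift {G : Type*} [Group G] (A B : Subgroup G) [B.Normal] {Z : Type*}
    [AddCommGroup Z] (c : ↥A → Z) (hmul : ∀ a b, c (a * b) = c a + c b)
    (hB : ∀ a : ↥A, (a : G) ∈ B → c a = 0) :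
    ∃ ψ : SecMod A B →+ Z, ∀ a, ψ (secCl A B a) = c a := by
  have h1 : c 1 = 0 := by
    have h := hmul 1 1
    rw [mul_one] at h
    exact left_eq_add.mp h
  let φ : ↥A →* Multiplicative Z :=
    { toFun := fun a => Multiplicative.ofAdd (c a)
      map_one' := by rw [h1]; rfl
      map_mul' := fun a b => by rw [hmul]; rfl }
  have hφ : ∀ x ∈ B.subgroupOf A, φ x = 1 := by
    intro x hx
    have h2 := hB x (Subgroup.mem_subgroupOf.mp hx)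
    show Multiplicative.ofAdd (c x) = 1
    rw [h2]
    rfl
  let φ' : ↥A ⧸ B.subgroupOf A →* Multiplicative Z := QuotientGroup.lift (B.subgroupOf A) φ hφ
  refine ⟨MonoidHom.toAdditiveLeft (Abelianization.lift φ'), fun a => ?_⟩
  rfl

/-- PIECE GB -/
theorem exists_beta {G : Type*} [Group G] (Q : Subgroup G) [hQ : Q.Normal] :
    ∃ β : SecMod Q ⊥ →+ SecMod Q ⊥ →+ SecMod ⁅Q, Q⁆ ⁅⁅Q, Q⁆, Q⁆, ∀ q r : ↥Q,
      β (secCl Q ⊥ q) (secCl Q ⊥ r) =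
        secCl ⁅Q, Q⁆ ⁅⁅Q, Q⁆, Q⁆ ⟨⁅(q : G), (r : G)⁆, Subgroup.commutator_mem_commutator q.2 r.2⟩ := by
  have hΓ2n : (⁅Q, Q⁆ : Subgroup G).Normal := inferInstance
  have hΓ32 : ⁅⁅Q, Q⁆, Q⁆ ≤ ⁅Q, Q⁆ := Subgroup.commutator_le_left ⁅Q, Q⁆ Q
  -- conjugation by `Q` is trivial on `Γ2/Γ3`
  have hconj : ∀ (g : G) (hg : g ∈ Q) (c : G) (hc : c ∈ ⁅Q, Q⁆),
      secCl ⁅Q, Q⁆ ⁅⁅Q, Q⁆, Q⁆ ⟨g * c * g⁻¹, hΓ2n.conj_mem c hc g⟩ =
        secCl ⁅Q, Q⁆ ⁅⁅Q, Q⁆, Q⁆ ⟨c, hc⟩ := by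
    intro g hg c hc
    have h3 : ⁅g, c⁆ ∈ ⁅⁅Q, Q⁆, Q⁆ := by
      rw [← commutatorElement_inv]
      exact Subgroup.inv_mem _ (Subgroup.commutator_mem_commutator hc hg)
    have h4 : (⟨g * c * g⁻¹, hΓ2n.conj_mem c hc g⟩ : ↥⁅Q, Q⁆) = ⟨⁅g, c⁆, hΓ32 h3⟩ * ⟨c, hc⟩ := by
      apply Subtype.ext
      show g * c * g⁻¹ = ⁅g, c⁆ * c
      rw [commutatorElement_def]
      group
    rw [h4, secCl_mul, secCl_eq_zero_of_mem _ _ _ h3, zero_add]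
  -- the pairing on elements
  let c : ↥Q → ↥Q → SecMod ⁅Q, Q⁆ ⁅⁅Q, Q⁆, Q⁆ := fun q r =>
    secCl ⁅Q, Q⁆ ⁅⁅Q, Q⁆, Q⁆ ⟨⁅(q : G), (r : G)⁆, Subgroup.commutator_mem_commutator q.2 r.2⟩
  have hc_right : ∀ q r r' : ↥Q, c q (r * r') = c q r + c q r' := by
    intro q r r'
    have h5 : (⟨⁅(q : G), ((r * r' : ↥Q) : G)⁆,
        Subgroup.commutator_mem_commutator q.2 (r * r').2⟩ : ↥⁅Q, Q⁆) =
        ⟨⁅(q : G), (r : G)⁆, Subgroup.commutator_mem_commutator q.2 r.2⟩ *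
          ⟨(r : G) * ⁅(q : G), (r' : G)⁆ * (r : G)⁻¹,
            hΓ2n.conj_mem _ (Subgroup.commutator_mem_commutator q.2 r'.2) r⟩ := by
      apply Subtype.ext
      show ⁅(q : G), (r : G) * (r' : G)⁆ = ⁅(q : G), (r : G)⁆ * ((r : G) * ⁅(q : G), (r' : G)⁆ * (r : G)⁻¹)
      simp only [commutatorElement_def]
      group
    show secCl ⁅Q, Q⁆ ⁅⁅Q, Q⁆, Q⁆ _ = _
    rw [h5, secCl_mul, hconj _ r.2]
  have hc_left : ∀ q q' r : ↥Q, c (q * q') r = c q r + c q' r := by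
    intro q q' r
    have h5 : (⟨⁅((q * q' : ↥Q) : G), (r : G)⁆,
        Subgroup.commutator_mem_commutator (q * q').2 r.2⟩ : ↥⁅Q, Q⁆) =
        ⟨(q : G) * ⁅(q' : G), (r : G)⁆ * (q : G)⁻¹,
            hΓ2n.conj_mem _ (Subgroup.commutator_mem_commutator q'.2 r.2) q⟩ *
          ⟨⁅(q : G), (r : G)⁆, Subgroup.commutator_mem_commutator q.2 r.2⟩ := by
      apply Subtype.ext
      show ⁅(q : G) * (q' : G), (r : G)⁆ = ((q : G) * ⁅(q' : G), (r : G)⁆ * (q : G)⁻¹) * ⁅(q : G), (r : G)⁆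
      simp only [commutatorElement_def]
      group
    show secCl ⁅Q, Q⁆ ⁅⁅Q, Q⁆, Q⁆ _ = _
    rw [h5, secCl_mul, hconj _ q.2, add_comm]
  have hbot : ∀ a : ↥Q, (a : G) ∈ (⊥ : Subgroup G) → a = 1 := by
    intro a ha
    apply Subtype.ext
    exact Subgroup.mem_bot.mp ha
  have hc_one_right : ∀ q : ↥Q, c q 1 = 0 := by
    intro q
    have h := hc_right q 1 1
    rw [mul_one] at h
    exact left_eq_add.mp h
  have hc_one_left : ∀ r : ↥Q, c 1 r = 0 := by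
    intro r
    have h := hc_left 1 1 r
    rw [mul_one] at h
    exact left_eq_add.mp h
  -- first variable fixed
  have h6 : ∀ q : ↥Q, ∃ ψ : SecMod Q ⊥ →+ SecMod ⁅Q, Q⁆ ⁅⁅Q, Q⁆, Q⁆,
      ∀ r, ψ (secCl Q ⊥ r) = c q r := fun q =>
    secMod_lift Q ⊥ (c q) (hc_right q) (fun a ha => by rw [hbot a ha]; exact hc_one_right q)
  choose ψ hψ using h6
  have h7 : ∀ q q' : ↥Q, ψ (q * q') = ψ q + ψ q' := by
    intro q q'
    apply AddMonoidHom.ext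
    intro v
    obtain ⟨r, rfl⟩ := secCl_surjective Q ⊥ v
    rw [AddMonoidHom.add_apply, hψ, hψ, hψ]
    exact hc_left q q' r
  have h8 : ∀ a : ↥Q, (a : G) ∈ (⊥ : Subgroup G) → ψ a = 0 := by
    intro a ha
    rw [hbot a ha]
    apply AddMonoidHom.ext
    intro v
    obtain ⟨r, rfl⟩ := secCl_surjective Q ⊥ v
    rw [hψ, AddMonoidHom.zero_apply]
    exact hc_one_left r
  obtain ⟨β, hβ⟩ := secMod_lift Q ⊥ ψ h7 h8
  refine ⟨β, fun q r => ?_⟩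
  rw [hβ, hψ]

end Cfsg.Agent.Helper49.HigGB
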