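import Mathlib
import Cfsg.Agent.Helper50.HigDefs

/-!
Piece GC of CALL S3050 (Higman): an element of order 3 acting fixed-point-freely on a normal
subgroup `Q` makes every `q ∈ Q` commute with its conjugate.
-/

set_option autoImplicit false

namespace Cfsg.Agent.Helper49.HigGC

open Cfsg.Agent.Helper5 Cfsg.Agent.Helper50.Hig

/-- PIECE GC -/
theorem comm_of_fpf {G : Type*} [Group G] [Finite G] (Q : Subgroup G) [hQ : Q.Normal] (y : G)
    (hy : orderOf y = 3) (hfpf : ∀ q ∈ Q, y * q * y⁻¹ = q → q = 1) (q : G) (hq : q ∈ Q) :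
    q * (y * q * y⁻¹) = (y * q * y⁻¹) * q := by
  have hy3 : y * y * y = 1 := by
    have h0 : y ^ 3 = 1 := by rw [← hy]; exact pow_orderOf_eq_one y
    rw [← h0, pow_succ, pow_two]
  have key : ∀ q ∈ Q, q * (y * q * y⁻¹) * (y * (y * q * y⁻¹) * y⁻¹) = 1 := by
    intro q hq
    let f : Q → Q := fun r =>
      ⟨(r : G)⁻¹ * (y * r * y⁻¹), Q.mul_mem (Q.inv_mem r.2) (hQ.conj_mem r r.2 y)⟩
    have hinj : Function.Injective f := by
      intro r s hrs
      have h : (r : G)⁻¹ * (y * r * y⁻¹) = (s : G)⁻¹ * (y * s * y⁻¹) := congrArg Subtype.val hrs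
      have h2 : y * ((s : G) * (r : G)⁻¹) * y⁻¹ = (s : G) * (r : G)⁻¹ := by
        have h3 : y * (s : G) * y⁻¹ = (s : G) * ((r : G)⁻¹ * (y * r * y⁻¹)) := by
          rw [h]; group
        have h4 : y * ((s : G) * (r : G)⁻¹) * y⁻¹ = (y * s * y⁻¹) * (y * r * y⁻¹)⁻¹ := by group
        rw [h4, h3]; group
      have h4 := hfpf _ (Q.mul_mem s.2 (Q.inv_mem r.2)) h2
      apply Subtype.ext
      exact (mul_inv_eq_one.mp h4).symm
    have hsurj : Function.Surjective f := Finite.surjective_of_injective hinj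
    obtain ⟨r, hr⟩ := hsurj ⟨q, hq⟩
    have hr' : (r : G)⁻¹ * (y * r * y⁻¹) = q := congrArg Subtype.val hr
    rw [← hr']
    have h5 : (r : G)⁻¹ * (y * r * y⁻¹) * (y * ((r : G)⁻¹ * (y * r * y⁻¹)) * y⁻¹) *
        (y * (y * ((r : G)⁻¹ * (y * r * y⁻¹)) * y⁻¹) * y⁻¹) =
        (r : G)⁻¹ * ((y * y * y) * r * (y * y * y)⁻¹) := by
      simp only [mul_assoc, mul_inv_rev, inv_mul_cancel_left, mul_inv_cancel_left]
    rw [h5, hy3]; simp
  have h1 := key q hq
  have h2 := key q⁻¹ (Q.inv_mem hq)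
  have h3 : (y * (y * q * y⁻¹) * y⁻¹) * ((y * q * y⁻¹) * q) = 1 := by
    have h6 := congrArg Inv.inv h2
    simp only [mul_inv_rev, inv_inv, inv_one] at h6
    simpa only [mul_assoc] using h6
  have h4 : q * (y * q * y⁻¹) = (y * (y * q * y⁻¹) * y⁻¹)⁻¹ := eq_inv_of_mul_eq_one_left h1
  have h5 : (y * q * y⁻¹) * q = (y * (y * q * y⁻¹) * y⁻¹)⁻¹ := eq_inv_of_mul_eq_one_right h3
  rw [h4, h5]

end Cfsg.Agent.Helper49.HigGC
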