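import Mathlib
import Cfsg.Agent.Helper50.HigDefs

/-!
Piece GN of CALL S3050 (Higman): if all commutators of a finite normal 2-subgroup `Q` vanish in
`Q'/[Q',Q]`, then `Q` is abelian.
-/

set_option autoImplicit false

namespace Cfsg.Agent.Helper49.HigGN

open Cfsg.Agent.Helper5 Cfsg.Agent.Helper50.Hig

open scoped commutatorElement

/-- the kernel of the class map of a section: an element of class `0` lies in `⁅A, A⁆ * B` -/
theorem mem_of_secCl_eq_zero {G : Type*} [Group G] (A B : Subgroup G) [hB : B.Normal] (a : ↥A)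
    (h : secCl A B a = 0) : ∃ c ∈ ⁅A, A⁆, ∃ b ∈ B, (a : G) = c * b := by
  unfold secCl at h
  have h1 : Abelianization.of (QuotientGroup.mk a : ↥A ⧸ B.subgroupOf A) = 1 := h
  have h2 : (QuotientGroup.mk a : ↥A ⧸ B.subgroupOf A) ∈ commutator (↥A ⧸ B.subgroupOf A) := by
    rw [← Abelianization.ker_of]
    exact h1
  have h3 : commutator (↥A ⧸ B.subgroupOf A) =
      (commutator ↥A).map (QuotientGroup.mk' (B.subgroupOf A)) := by
    rw [commutator_def, commutator_def, Subgroup.map_commutator,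
      Subgroup.map_top_of_surjective _ (QuotientGroup.mk'_surjective _)]
  rw [h3] at h2
  obtain ⟨c, hc, hca⟩ := h2
  have h4 : c⁻¹ * a ∈ B.subgroupOf A := by
    rw [← QuotientGroup.eq]
    exact hca
  have h5 : (c : G) ∈ ⁅A, A⁆ := by
    have h6 : (commutator ↥A).map A.subtype = ⁅A, A⁆ := by
      rw [commutator_def, Subgroup.map_commutator]
      have h7 : (⊤ : Subgroup ↥A).map A.subtype = A := by
        ext x
        simp
      rw [h7]
    rw [← h6]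
    exact ⟨c, hc, rfl⟩
  refine ⟨c, h5, (c : G)⁻¹ * a, ?_, by group⟩
  have h8 := Subgroup.mem_subgroupOf.mp h4
  simpa using h8

/-- PIECE GN -/
theorem comm_le_of_secCl_eq_zero {G : Type*} [Group G] [Finite G] (Q : Subgroup G) [hQ : Q.Normal]
    (hQ2 : IsPGroup 2 ↥Q)
    (h : ∀ q r : ↥Q, secCl ⁅Q, Q⁆ ⁅⁅Q, Q⁆, Q⁆
      ⟨⁅(q : G), (r : G)⁆, Subgroup.commutator_mem_commutator q.2 r.2⟩ = 0) :
    ∀ q ∈ Q, ∀ r ∈ Q, q * r = r * q := by
  have : Fact (Nat.Prime 2) := ⟨Nat.prime_two⟩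
  have hΓ2Q : ⁅Q, Q⁆ ≤ Q := Subgroup.commutator_le_right Q Q
  -- every commutator lies in `Γ3`
  have h1 : ∀ q ∈ Q, ∀ r ∈ Q, ⁅q, r⁆ ∈ ⁅⁅Q, Q⁆, Q⁆ := by
    intro q hq r hr
    obtain ⟨c, hc, b, hb, hcb⟩ := mem_of_secCl_eq_zero ⁅Q, Q⁆ ⁅⁅Q, Q⁆, Q⁆ _ (h ⟨q, hq⟩ ⟨r, hr⟩)
    have hc' : c ∈ ⁅⁅Q, Q⁆, Q⁆ := Subgroup.commutator_mono le_rfl hΓ2Q hc
    have hcb' : ⁅q, r⁆ = c * b := hcb
    rw [hcb']
    exact Subgroup.mul_mem _ hc' hb
  have h2 : ⁅Q, Q⁆ ≤ ⁅⁅Q, Q⁆, Q⁆ := by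
    rw [Subgroup.commutator_le]
    exact h1
  -- `Γ2` lies in every term of the lower central series of `Q`
  have h3 : ∀ n : ℕ, ⁅Q, Q⁆ ≤ Q.lowerCentralSeries n := by
    intro n
    induction n with
    | zero =>
      rw [Subgroup.lowerCentralSeries_zero]
      exact hΓ2Q
    | succ n ih =>
      rw [Subgroup.lowerCentralSeries_succ]
      exact h2.trans (Subgroup.commutator_mono ih le_rfl)
  have hnil : Group.IsNilpotent ↥Q := hQ2.isNilpotent
  obtain ⟨n, hn⟩ := (Subgroup.isNilpotent_iff_lowerCentralSeries Q).mp hnil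
  have h4 : ⁅Q, Q⁆ = ⊥ := by
    rw [eq_bot_iff]
    exact (h3 n).trans (le_of_eq hn)
  intro q hq r hr
  have h5 : ⁅q, r⁆ ∈ ⁅Q, Q⁆ := Subgroup.commutator_mem_commutator hq hr
  rw [h4, Subgroup.mem_bot, commutatorElement_eq_one_iff_mul_comm] at h5
  exact h5

end Cfsg.Agent.Helper49.HigGN
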