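import Mathlib
import Cfsg.Agent.Helper50.HigDefs
import Cfsg.Agent.Helper49.HigGN
import Cfsg.Prelude.Def_BaumannBlocks

/-!
Piece GE of CALL S3050 (Higman): from the coordinate isomorphism `Ψ : Q ≃ (K²)^k` to the
decomposition of `Q` into normal subgroups that are natural `SL₂(K)`-modules.
-/

set_option autoImplicit false

namespace Cfsg.Agent.Helper49.HigGE

open Cfsg.Agent.Helper5 Cfsg.Agent.Helper50.Hig

/-- the class map of a commutative subgroup modulo `⊥` has trivial kernel -/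
theorem secCl_bot_eq_zero' {G : Type*} [Group G] (A : Subgroup G)
    (hc : ∀ a ∈ A, ∀ b ∈ A, a * b = b * a) (a : ↥A) (h : secCl A ⊥ a = 0) : a = 1 := by
  obtain ⟨c, hc', b, hb, hab⟩ := Cfsg.Agent.Helper49.HigGN.mem_of_secCl_eq_zero A ⊥ a h
  have h1 : ⁅A, A⁆ = ⊥ := by
    rw [Subgroup.commutator_eq_bot_iff_le_centralizer]
    intro x hx
    rw [Subgroup.mem_centralizer_iff]
    intro y hy
    exact hc y hy x hx
  rw [h1, Subgroup.mem_bot] at hc'
  rw [Subgroup.mem_bot] at hb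
  apply Subtype.ext
  rw [hab, hc', hb, mul_one]
  rfl

/-- PIECE GE -/
theorem final_of_psi {G : Type*} [Group G] [Finite G] (Q : Subgroup G) [hQn : Q.Normal]
    (K : Type*) [Field K] [Fintype K] (π : G →* SL2 K) (hπ : Function.Surjective π)
    (hπQ : ∀ g : G, π g = 1 ↔ g ∈ Q)
    (hQc : ∀ q ∈ Q, ∀ r ∈ Q, q * r = r * q) (ρ : SL2 K →* AddMonoid.End (SecMod Q ⊥))
    (hρ : ∀ (g : G) (q : ↥Q),
      ρ (π g) (secCl Q ⊥ q) = secCl Q ⊥ ⟨g * q * g⁻¹, hQn.conj_mem q q.2 g⟩)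
    (k : ℕ) (Ψ : SecMod Q ⊥ ≃+ (Fin k → Fin 2 → K))
    (hΨ : ∀ (g : SL2 K) (m : SecMod Q ⊥) (i : Fin k),
      Ψ (ρ g m) i = (g : Matrix (Fin 2) (Fin 2) K).mulVec (Ψ m i)) :
    ∃ (k : ℕ) (V : Fin k → Subgroup G), (∀ i, V i ≤ Q ∧ (V i).Normal ∧
      Cfsg.ActsAsSL2OnSection K ⊤ ⊤ (V i) ⊥) ∧ iSupIndep V ∧ ⨆ i, V i = Q := by
  classical
  -- the class map is injective
  have hcl_inj : ∀ a b : ↥Q, secCl Q ⊥ a = secCl Q ⊥ b → a = b := by
    intro a b hab
    have h1 : secCl Q ⊥ (a * b⁻¹) = 0 := by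
      have h2 : secCl Q ⊥ (a * b⁻¹) + secCl Q ⊥ b = secCl Q ⊥ a := by
        rw [← secCl_mul, inv_mul_cancel_right]
      rw [hab] at h2
      exact add_eq_right.mp h2
    have h3 := secCl_bot_eq_zero' Q hQc _ h1
    exact mul_inv_eq_one.mp h3
  let Θ : ↥Q → (Fin k → Fin 2 → K) := fun q => Ψ (secCl Q ⊥ q)
  have hΘmul : ∀ a b : ↥Q, Θ (a * b) = Θ a + Θ b := fun a b => by
    show Ψ (secCl Q ⊥ (a * b)) = _
    rw [secCl_mul, map_add]
  have hΘone : Θ 1 = 0 := by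
    show Ψ (secCl Q ⊥ 1) = 0
    rw [secCl_one, map_zero]
  have hΘinv : ∀ a : ↥Q, Θ a⁻¹ = - Θ a := by
    intro a
    have h := hΘmul a a⁻¹
    rw [mul_inv_cancel, hΘone] at h
    exact (neg_eq_of_add_eq_zero_right h.symm).symm
  have hΘinj : ∀ a b : ↥Q, Θ a = Θ b → a = b := fun a b h => hcl_inj a b (Ψ.injective h)
  have hΘsurj : ∀ v : Fin k → Fin 2 → K, ∃ q : ↥Q, Θ q = v := by
    intro v
    obtain ⟨q, hq⟩ := secCl_surjective Q ⊥ (Ψ.symm v)
    refine ⟨q, ?_⟩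
    show Ψ (secCl Q ⊥ q) = v
    rw [hq, AddEquiv.apply_symm_apply]
  have hΘconj : ∀ (g : G) (q : ↥Q) (j : Fin k),
      Θ ⟨g * q * g⁻¹, hQn.conj_mem q q.2 g⟩ j =
        ((π g : SL2 K) : Matrix (Fin 2) (Fin 2) K).mulVec (Θ q j) := by
    intro g q j
    show Ψ (secCl Q ⊥ _) j = _
    rw [← hρ, hΨ]
  -- the subgroups
  let W : Fin k → Subgroup ↥Q := fun i =>
    { carrier := {q | ∀ j, j ≠ i → Θ q j = 0}
      mul_mem' := fun {a b} ha hb j hj => by
        rw [hΘmul, Pi.add_apply, ha j hj, hb j hj, add_zero]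
      one_mem' := fun j _ => by rw [hΘone]; rfl
      inv_mem' := fun {a} ha j hj => by
        rw [hΘinv, Pi.neg_apply, ha j hj, neg_zero] }
  let V : Fin k → Subgroup G := fun i => (W i).map Q.subtype
  have hVQ : ∀ i, V i ≤ Q := fun i => Subgroup.map_subtype_le _
  have hVmem : ∀ i (g : G), g ∈ V i ↔ ∃ h : g ∈ Q, ∀ j, j ≠ i → Θ ⟨g, h⟩ j = 0 := by
    intro i g
    constructor
    · rintro ⟨q, hq, rfl⟩
      exact ⟨q.2, hq⟩
    · rintro ⟨h, hq⟩
      exact ⟨⟨g, h⟩, hq, rfl⟩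
  have hVn : ∀ i, (V i).Normal := by
    intro i
    refine ⟨fun n hn g => ?_⟩
    obtain ⟨hnQ, hnW⟩ := (hVmem i n).mp hn
    refine (hVmem i _).mpr ⟨hQn.conj_mem n hnQ g, ?_⟩
    intro j hj
    have h1 := hΘconj g ⟨n, hnQ⟩ j
    rw [h1, hnW j hj, Matrix.mulVec_zero]
  refine ⟨k, V, fun i => ⟨hVQ i, hVn i, ?_⟩, ?_, ?_⟩
  · -- the natural module structure
    unfold Cfsg.ActsAsSL2OnSection
    refine ⟨?_, bot_le, π.comp (⊤ : Subgroup G).subtype, ?_⟩
    · intro g _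
      rw [Subgroup.mem_normalizer_iff]
      intro n
      constructor
      · intro hn
        exact (hVn i).conj_mem n hn g
      · intro hn
        have h1 := (hVn i).conj_mem _ hn g⁻¹
        have h2 : g⁻¹ * (g * n * g⁻¹) * g⁻¹⁻¹ = n := by group
        rw [h2] at h1
        exact h1
    let ψ : ↥(V i) →* Multiplicative (Fin 2 → K) :=
      { toFun := fun u => Multiplicative.ofAdd (Θ ⟨(u : G), hVQ i u.2⟩ i)
        map_one' := by
          show Multiplicative.ofAdd (Θ 1 i) = 1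
          rw [hΘone]
          rfl
        map_mul' := fun a b => by
          show Multiplicative.ofAdd (Θ (⟨(a : G), hVQ i a.2⟩ * ⟨(b : G), hVQ i b.2⟩) i) = _
          rw [hΘmul]
          rfl }
    refine ⟨ψ, ?_, ?_, ?_, ?_⟩
    · rw [eq_top_iff]
      intro s _
      obtain ⟨g, rfl⟩ := hπ s
      exact ⟨⟨g, trivial⟩, rfl⟩
    · intro w
      obtain ⟨q, hq⟩ := hΘsurj (Pi.single i (Multiplicative.toAdd w))
      have hqV : (q : G) ∈ V i := by
        refine (hVmem i _).mpr ⟨q.2, fun j hj => ?_⟩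
        show Θ q j = 0
        rw [hq, Pi.single_eq_of_ne hj]
      refine ⟨⟨(q : G), hqV⟩, ?_⟩
      show Multiplicative.ofAdd (Θ q i) = w
      rw [hq, Pi.single_eq_same]
      rfl
    · intro u
      obtain ⟨huQ, huW⟩ := (hVmem i u).mp u.2
      constructor
      · intro h
        have h1 : Θ ⟨(u : G), huQ⟩ i = 0 := h
        have h2 : Θ ⟨(u : G), huQ⟩ = 0 := by
          funext j
          by_cases hj : j = i
          · rw [hj, h1]
            rfl
          · rw [huW j hj]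
            rfl
        have h3 := hΘinj ⟨(u : G), huQ⟩ 1 (by rw [h2, hΘone])
        rw [Subgroup.mem_bot]
        exact congrArg Subtype.val h3
      · intro h
        rw [Subgroup.mem_bot] at h
        have h3 : (⟨(u : G), huQ⟩ : ↥Q) = 1 := Subtype.ext h
        show Multiplicative.ofAdd (Θ ⟨(u : G), huQ⟩ i) = 1
        rw [h3, hΘone]
        rfl
    · intro e u
      obtain ⟨huQ, huW⟩ := (hVmem i u).mp u.2
      refine ⟨⟨(e : G) * (u : G) * (e : G)⁻¹, (hVn i).conj_mem u u.2 e⟩, rfl, ?_⟩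
      exact hΘconj (e : G) ⟨(u : G), huQ⟩ i
  · -- independence
    rw [iSupIndep_def]
    intro i
    rw [disjoint_iff, eq_bot_iff]
    intro g hg
    obtain ⟨hgV, hgS⟩ := Subgroup.mem_inf.mp hg
    obtain ⟨hgQ, hgW⟩ := (hVmem i g).mp hgV
    let Z : Subgroup ↥Q :=
      { carrier := {q | Θ q i = 0}
        mul_mem' := fun {a b} ha hb => by
          show Θ (a * b) i = 0
          have ha' : Θ a i = 0 := ha
          have hb' : Θ b i = 0 := hb
          rw [hΘmul, Pi.add_apply, ha', hb', add_zero]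
        one_mem' := by
          show Θ 1 i = 0
          rw [hΘone]
          rfl
        inv_mem' := fun {a} ha => by
          show Θ a⁻¹ i = 0
          have ha' : Θ a i = 0 := ha
          rw [hΘinv, Pi.neg_apply, ha', neg_zero] }
    have hle : (⨆ j, ⨆ (_ : j ≠ i), V j) ≤ Z.map Q.subtype := by
      refine iSup_le fun j => iSup_le fun hj => ?_
      rintro x ⟨q, hq, rfl⟩
      exact ⟨q, hq i (Ne.symm hj), rfl⟩
    obtain ⟨q, hqZ, hqg⟩ := hle hgS
    have hq_eq : q = ⟨g, hgQ⟩ := Subtype.ext hqg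
    have hqZ' : Θ q i = 0 := hqZ
    have h2 : Θ ⟨g, hgQ⟩ = 0 := by
      funext j
      by_cases hj : j = i
      · rw [hj, ← hq_eq, hqZ']
        rfl
      · rw [hgW j hj]
        rfl
    have h3 := hΘinj ⟨g, hgQ⟩ 1 (by rw [h2, hΘone])
    rw [Subgroup.mem_bot]
    exact congrArg Subtype.val h3
  · -- the join is `Q`
    apply le_antisymm (iSup_le hVQ)
    intro g hg
    let T : AddSubgroup (Fin k → Fin 2 → K) :=
      { carrier := {v | ∃ q : ↥Q, (q : G) ∈ (⨆ i, V i) ∧ Θ q = v}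
        add_mem' := by
          rintro _ _ ⟨a, ha, rfl⟩ ⟨b, hb, rfl⟩
          exact ⟨a * b, Subgroup.mul_mem _ ha hb, hΘmul a b⟩
        zero_mem' := ⟨1, Subgroup.one_mem _, hΘone⟩
        neg_mem' := by
          rintro _ ⟨a, ha, rfl⟩
          exact ⟨a⁻¹, Subgroup.inv_mem _ ha, hΘinv a⟩ }
    have hsingle : ∀ (i : Fin k) (w : Fin 2 → K), Pi.single i w ∈ T := by
      intro i w
      obtain ⟨q, hq⟩ := hΘsurj (Pi.single i w)
      have hqV : (q : G) ∈ V i := by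
        refine (hVmem i _).mpr ⟨q.2, fun j hj => ?_⟩
        show Θ q j = 0
        rw [hq, Pi.single_eq_of_ne hj]
      exact ⟨q, le_iSup V i hqV, hq⟩
    have hall : ∀ v : Fin k → Fin 2 → K, v ∈ T := by
      intro v
      rw [← Finset.univ_sum_single v]
      exact AddSubgroup.sum_mem _ (fun i _ => hsingle i (v i))
    obtain ⟨q, hqS, hq⟩ := hall (Θ ⟨g, hg⟩)
    have h1 := hΘinj q ⟨g, hg⟩ hq
    rw [h1] at hqS
    exact hqS

end Cfsg.Agent.Helper49.HigGE
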