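import Cfsg.Agent.Helper63.N14Defs

/-!
# CALL S4414 (helper63), piece D2b (helper49)

A subgroup of `S₂ S_q` centralizing `A / K` is a `2`-group.
-/

set_option autoImplicit false

namespace Cfsg.Agent.Helper49.N14

open Cfsg.Agent.Helper63.N14

/-- D2b. A subgroup of `S₂ S_q` centralizing `A / K` is a `2`-group. -/
theorem n1_two_group {S : Type*} [Group S] [Finite S] (p q : ℕ) (hp : p.Prime) (hq : q.Prime)
    (hq2 : q ≠ 2) (A : Subgroup S) (hAN : A.Normal) (hAab : ∀ a ∈ A, ∀ b ∈ A, a * b = b * a)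
    (S₂ Sq : Subgroup S) (h2 : IsPGroup 2 S₂) (hSq : Nat.card Sq = q)
    (hH : Nat.card ↥(S₂ ⊔ Sq) = Nat.card S₂ * Nat.card Sq)
    (hcent : ∀ g ∈ Sq, g ≠ 1 → ∀ a ∈ A, g * a = a * g → a = 1)
    (K : Subgroup S) (hK : IsHyp A p K)
    (N₁ : Subgroup S) (hN₁ : N₁ ≤ S₂ ⊔ Sq) (hN₁K : ∀ n ∈ N₁, ∀ a ∈ A, n * a * n⁻¹ * a⁻¹ ∈ K) :
    IsPGroup 2 N₁ := by
  classical
  haveI : Fact q.Prime := ⟨hq⟩
  haveI : Fact (Nat.Prime 2) := ⟨Nat.prime_two⟩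
  obtain ⟨n, hn⟩ := IsPGroup.iff_card.mp h2
  have hcop : Nat.Coprime q 2 := (Nat.coprime_primes hq Nat.prime_two).mpr hq2
  rw [hn, hSq] at hH
  by_contra hnot
  -- `q` divides `|N₁|`
  have hqN : q ∣ Nat.card N₁ := by
    by_contra hqN
    apply hnot
    have h1 : Nat.card N₁ ∣ 2 ^ n * q := by
      rw [← hH]
      exact Subgroup.card_dvd_of_le hN₁
    have h2' : Nat.Coprime (Nat.card N₁) q := (Nat.Coprime.symm ((Nat.Prime.coprime_iff_not_dvd hq).mpr hqN))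
    have h3 : Nat.card N₁ ∣ 2 ^ n := h2'.dvd_of_dvd_mul_right h1
    obtain ⟨k, -, hk⟩ := (Nat.dvd_prime_pow Nat.prime_two).mp h3
    exact IsPGroup.of_card hk
  obtain ⟨y, hy⟩ := exists_prime_orderOf_dvd_card' q hqN
  have hyS : orderOf (y : S) = q := by rw [Subgroup.orderOf_coe, hy]
  -- Sylow theory in `H = S₂ ⊔ Sq`
  obtain ⟨y', hy'⟩ : ∃ y' : ↥(S₂ ⊔ Sq), (y' : S) = (y : S) := ⟨⟨y, hN₁ y.2⟩, rfl⟩
  have hy'o : orderOf y' = q := by rw [← Subgroup.orderOf_coe, hy', hyS]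
  have hQ₁ : IsPGroup q (Subgroup.zpowers y') :=
    IsPGroup.of_card (n := 1) (by rw [Nat.card_zpowers, hy'o, pow_one])
  have hQ₂card : Nat.card (Sq.subgroupOf (S₂ ⊔ Sq)) = q := by
    rw [← hSq]
    exact Nat.card_congr (Subgroup.subgroupOfEquivOfLe le_sup_right).toEquiv
  have hQ₂ : IsPGroup q (Sq.subgroupOf (S₂ ⊔ Sq)) :=
    IsPGroup.of_card (n := 1) (by rw [hQ₂card, pow_one])
  obtain ⟨P₁, hP₁⟩ := hQ₁.exists_le_sylow
  obtain ⟨P₂, hP₂⟩ := hQ₂.exists_le_sylow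
  have hP₂eq : Sq.subgroupOf (S₂ ⊔ Sq) = (P₂ : Subgroup ↥(S₂ ⊔ Sq)) := by
    apply Subgroup.eq_of_le_of_card_ge hP₂
    obtain ⟨k, hk⟩ := IsPGroup.iff_card.mp P₂.2
    have h1 : Nat.card (P₂ : Subgroup ↥(S₂ ⊔ Sq)) ∣ 2 ^ n * q := by
      rw [← hH]
      exact Subgroup.card_subgroup_dvd_card _
    rw [hk] at h1
    have h3 : Nat.Coprime (q ^ k) (2 ^ n) := Nat.Coprime.pow k n hcop
    have h4 : q ^ k ∣ q := h3.dvd_of_dvd_mul_left h1
    rw [hQ₂card, hk]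
    exact Nat.le_of_dvd hq.pos h4
  obtain ⟨h, hh⟩ := MulAction.exists_smul_eq ↥(S₂ ⊔ Sq) P₁ P₂
  have hmem : h * y' * h⁻¹ ∈ (P₂ : Subgroup ↥(S₂ ⊔ Sq)) := by
    rw [← hh, Sylow.coe_subgroup_smul]
    have h5 : y' ∈ (P₁ : Subgroup ↥(S₂ ⊔ Sq)) := hP₁ (Subgroup.mem_zpowers y')
    have h6 := Subgroup.smul_mem_pointwise_smul y' (MulAut.conj h) _ h5
    simpa [MulAut.smul_def] using h6
  rw [← hP₂eq, Subgroup.mem_subgroupOf] at hmem
  -- the element `g = h y h⁻¹` of `Sq`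
  obtain ⟨g, hg⟩ : ∃ g : S, g = (h : S) * (y : S) * (h : S)⁻¹ := ⟨_, rfl⟩
  have hgSq : g ∈ Sq := by
    rw [hg, ← hy']
    simpa using hmem
  have hy1 : (y : S) ≠ 1 := by
    intro h1
    rw [h1, orderOf_one] at hyS
    exact hq.one_lt.ne hyS
  have hg1 : g ≠ 1 := by
    intro h1
    apply hy1
    rw [hg] at h1
    calc (y : S) = (h : S)⁻¹ * ((h : S) * (y : S) * (h : S)⁻¹) * (h : S) := by group
      _ = 1 := by rw [h1]; group
  -- the injection `A → K`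
  have hmemK : ∀ a ∈ A, (h : S)⁻¹ * (g * a * g⁻¹ * a⁻¹) * (h : S) ∈ K := by
    intro a ha
    have ha' : (h : S)⁻¹ * a * (h : S) ∈ A := by
      have := hAN.conj_mem a ha (h : S)⁻¹
      simpa using this
    have h7 := hN₁K (y : S) y.2 _ ha'
    have h8 : (h : S)⁻¹ * (g * a * g⁻¹ * a⁻¹) * (h : S)
        = (y : S) * ((h : S)⁻¹ * a * (h : S)) * (y : S)⁻¹ * ((h : S)⁻¹ * a * (h : S))⁻¹ := by
      rw [hg]; group
    rw [h8]
    exact h7
  have hinj : Function.Injective (fun a : ↥A =>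
      (⟨(h : S)⁻¹ * (g * (a : S) * g⁻¹ * (a : S)⁻¹) * (h : S), hmemK a a.2⟩ : ↥K)) := by
    intro a b hab
    have e0 : (h : S)⁻¹ * (g * (a : S) * g⁻¹ * (a : S)⁻¹) * (h : S)
        = (h : S)⁻¹ * (g * (b : S) * g⁻¹ * (b : S)⁻¹) * (h : S) := congrArg Subtype.val hab
    have e1 : (a : S) * g⁻¹ * (a : S)⁻¹ = (b : S) * g⁻¹ * (b : S)⁻¹ := by
      have e2 : g * (a : S) * g⁻¹ * (a : S)⁻¹ = g * (b : S) * g⁻¹ * (b : S)⁻¹ := by
        have := mul_left_cancel (mul_right_cancel e0)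
        exact this
      have e3 : g * ((a : S) * g⁻¹ * (a : S)⁻¹) = g * ((b : S) * g⁻¹ * (b : S)⁻¹) := by
        simpa [mul_assoc] using e2
      exact mul_left_cancel e3
    have e4 : g * ((b : S)⁻¹ * (a : S)) = (b : S)⁻¹ * (a : S) * g := by
      calc g * ((b : S)⁻¹ * (a : S))
          = g * ((b : S)⁻¹ * ((a : S) * g⁻¹ * (a : S)⁻¹) * (a : S) * g) := by group
        _ = g * ((b : S)⁻¹ * ((b : S) * g⁻¹ * (b : S)⁻¹) * (a : S) * g) := by rw [e1]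
        _ = (b : S)⁻¹ * (a : S) * g := by group
    have e5 := hcent g hgSq hg1 _ (A.mul_mem (A.inv_mem b.2) a.2) e4
    apply Subtype.ext
    calc (a : S) = (b : S) * ((b : S)⁻¹ * (a : S)) := by group
      _ = (b : S) := by rw [e5, mul_one]
  have hle : Nat.card A ≤ Nat.card K := Nat.card_le_card_of_injective _ hinj
  have hKpos : 0 < Nat.card K := Nat.card_pos
  have h9 := hK.2
  have h10 := hp.two_le
  nlinarith

end Cfsg.Agent.Helper49.N14
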